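import Cfsg.Agent.Lib.Brauer43.Involution
import Cfsg.Agent.Lib.Char.Kernel
import Cfsg.Agent.Lib.Char.Degree
import Cfsg.Agent.Lib.CharAux
import Mathlib.LinearAlgebra.Determinant
import Mathlib.GroupTheory.Abelianization.Defs

/-!
# An element at which every nonvanishing nonprincipal character drops by four: the degrees

A nonprincipal character that does not vanish at such an element has degree three, five or six,
and is a constituent of a product of two of degree three.
-/

set_option autoImplicit false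
set_option linter.unusedSectionVars false

open Cfsg Cfsg.Agent.Lib
open scoped ComplexConjugate

namespace Cfsg.Agent.Lib.ConstFour

universe u

variable {G : Type u} [Group G] [Finite G] {u : G}

/-- Every nonprincipal irreducible character drops by four at `u` or vanishes there. -/
def Drop (u : G) : Prop :=
  ∀ χ : IrrCharacter G, (χ : G → ℂ) ≠ (fun _ => (1 : ℂ)) →
    ((χ : G → ℂ) 1 - (χ : G → ℂ) u = 4 ∨ (χ : G → ℂ) u = 0)

/-- The degree. -/
noncomputable def deg (χ : IrrCharacter G) : ℕ := charDegree (χ : G → ℂ)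

lemma apply_one (χ : IrrCharacter G) : (χ : G → ℂ) 1 = (deg χ : ℂ) :=
  Char.apply_one_eq_charDegree (Char.isCharacter_of_isIrr χ.2)

lemma deg_pos (χ : IrrCharacter G) : 0 < deg χ := Char.charDegree_pos χ.2

lemma value (h : Drop u) (χ : IrrCharacter G) (hne : (χ : G → ℂ) ≠ fun _ => 1)
    (hv : (χ : G → ℂ) u ≠ 0) : (χ : G → ℂ) u = (deg χ : ℂ) - 4 := by
  have := (h χ hne).resolve_right hv
  rw [apply_one] at this
  linear_combination -this

lemma value_real (h : Drop u) (χ : IrrCharacter G) :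
    conj ((χ : G → ℂ) u) = (χ : G → ℂ) u := by
  by_cases hne : (χ : G → ℂ) = fun _ => 1
  · simp [hne]
  by_cases hv : (χ : G → ℂ) u = 0
  · simp [hv]
  · rw [value h χ hne hv, map_sub, Complex.conj_natCast, map_ofNat]

/-- The group is perfect. -/
theorem perfect (h : Drop u) : commutator G = ⊤ := by
  classical
  by_contra hc
  have hi : 1 < (commutator G).index := by
    rcases Nat.lt_or_ge 1 (commutator G).index with h' | h'
    · exact h'
    · exact absurd (Subgroup.index_eq_one.1 (by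
        have := Subgroup.index_ne_zero_of_finite (H := commutator G); omega)) hc
  rw [← Char.card_charDegree_one] at hi
  obtain ⟨⟨χ, hχ⟩, hne⟩ : ∃ x : {χ : IrrCharacter G // charDegree (χ : G → ℂ) = 1},
      (x.1 : G → ℂ) ≠ fun _ => 1 := by
    by_contra hall
    push Not at hall
    haveI : Subsingleton {χ : IrrCharacter G // charDegree (χ : G → ℂ) = 1} :=
      ⟨fun a b => Subtype.ext (Subtype.ext ((hall a).trans (hall b).symm))⟩
    haveI := Finite.one_lt_card_iff_nontrivial.1 hi
    exact false_of_nontrivial_of_subsingleton {χ : IrrCharacter G // charDegree (χ : G → ℂ) = 1}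
  have h1 : (χ : G → ℂ) 1 = 1 := by rw [apply_one, deg, hχ]; norm_num
  have hnorm : ‖(χ : G → ℂ) u‖ = 1 := by
    obtain ⟨n, ρ, hρ⟩ := Char.isCharacter_of_isIrr χ.2
    obtain ⟨b, μ, hμ, -, hc⟩ := Char.exists_eigenbasis ρ u
    have hn : n = 1 := by
      rw [← hρ, Representation.char_one, Module.finrank_fintype_fun_eq_card, Fintype.card_fin] at h1
      exact_mod_cast h1
    have hcard : Fintype.card (Fin (Module.finrank ℂ (Fin n → ℂ))) = 1 := by simp [hn]
    obtain ⟨i, hi⟩ := Fintype.card_eq_one_iff.1 hcard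
    rw [← hρ, ← pow_one u, hc 1, Fintype.sum_eq_single i (fun j hj => absurd (hi j) hj), pow_one]
    exact Char.norm_eq_one_of_pow_orderOf (hμ i)
  rcases h χ hne with e | e
  · rw [h1] at e
    rw [show (χ : G → ℂ) u = -3 by linear_combination -e] at hnorm
    norm_num at hnorm
  · rw [e] at hnorm; norm_num at hnorm

lemma deg_ne_one (h : Drop u) (χ : IrrCharacter G) (hne : (χ : G → ℂ) ≠ fun _ => 1) :
    deg χ ≠ 1 := fun hd => by
  have h1 : Nat.card {χ : IrrCharacter G // charDegree (χ : G → ℂ) = 1} = 1 := by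
    rw [Char.card_charDegree_one, perfect h, Subgroup.index_top]
  obtain ⟨hs, -⟩ := Nat.card_eq_one_iff_unique.1 h1
  have := @Subsingleton.elim _ hs ⟨χ, hd⟩
    ⟨⟨fun _ => (1 : ℂ), Char.isIrrCharacter_one⟩, Char.charDegree_one⟩
  exact hne (congrArg (fun x => ((x.1 : IrrCharacter G) : G → ℂ)) this)

/-- The value at `u` of a member of degree at most two is nonnegative or the degree is two. -/
lemma small_value (h : Drop u) (χ : IrrCharacter G) (hd : deg χ ≤ 2) :
    (χ : G → ℂ) u = 1 ∨ (χ : G → ℂ) u = 0 ∨ (χ : G → ℂ) u = -2 := by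
  by_cases hne : (χ : G → ℂ) = fun _ => 1
  · simp [hne]
  by_cases hv : (χ : G → ℂ) u = 0
  · simp [hv]
  have h1 := deg_ne_one h χ hne
  have h0 := deg_pos χ
  refine Or.inr (Or.inr ?_)
  rw [value h χ hne hv, show deg χ = 2 by omega]
  norm_num

/-- The coordinates of a product of two irreducible characters. -/
lemma exists_coords [Fintype G] (χ φ : IrrCharacter G) :
    ∃ m : IrrCharacter G → ℕ,
      (∀ g : G, (χ : G → ℂ) g * conj ((φ : G → ℂ) g) =
        ∑ ψ : IrrCharacter G, (m ψ : ℂ) * (ψ : G → ℂ) g) ∧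
      deg χ * deg φ = ∑ ψ : IrrCharacter G, m ψ * deg ψ ∧
      ∀ ψ : IrrCharacter G,
        (m ψ : ℂ) = classInner (fun g => (χ : G → ℂ) g * conj ((φ : G → ℂ) g)) (ψ : G → ℂ) := by
  classical
  have hΦ : IsCharacter G (fun g => (χ : G → ℂ) g * conj ((φ : G → ℂ) g)) :=
    Char.isCharacter_mul (Char.isCharacter_of_isIrr χ.2)
      (Char.isCharacter_conj (Char.isCharacter_of_isIrr φ.2))
  choose m hm using fun ψ : IrrCharacter G =>
    Char.classInner_natCast hΦ (Char.isCharacter_of_isIrr ψ.2)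
  have hdec : ∀ g : G, (χ : G → ℂ) g * conj ((φ : G → ℂ) g) =
      ∑ ψ : IrrCharacter G, (m ψ : ℂ) * (ψ : G → ℂ) g := fun g => by
    have := congrFun (Char.eq_sum_classInner_smul (Char.isClassFunction_of_isCharacter hΦ)) g
    simp only [Finset.sum_apply, Pi.smul_apply, smul_eq_mul, hm] at this
    exact this
  refine ⟨m, hdec, ?_, fun ψ => (hm ψ).symm⟩
  have h1 := hdec 1
  simp only [apply_one, Complex.conj_natCast] at h1
  exact_mod_cast h1

/-- No nonvanishing member of degree two. -/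
theorem deg_ne_two (h : Drop u) (χ : IrrCharacter G) (hne : (χ : G → ℂ) ≠ fun _ => 1)
    (hv : (χ : G → ℂ) u ≠ 0) : deg χ ≠ 2 := by
  classical
  haveI := Fintype.ofFinite G
  intro hd
  have hval : (χ : G → ℂ) u = -2 := by rw [value h χ hne hv, hd]; norm_num
  obtain ⟨m, hdec, hdeg, hm⟩ := exists_coords χ χ
  set o : IrrCharacter G := ⟨fun _ => (1 : ℂ), Char.isIrrCharacter_one⟩
  have ho : m o = 1 := by
    have e := hm o
    have : classInner (fun g => (χ : G → ℂ) g * conj ((χ : G → ℂ) g)) (o : G → ℂ) =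
        classInner (χ : G → ℂ) (χ : G → ℂ) := by simp [classInner, o]
    rw [this, Char.classInner_irr_self χ.2] at e
    exact_mod_cast e
  have hu := hdec u
  rw [← Finset.add_sum_erase _ _ (Finset.mem_univ o), ho, hval] at hu
  rw [hd, ← Finset.add_sum_erase _ _ (Finset.mem_univ o), ho,
    show deg o = 1 from Char.charDegree_one] at hdeg
  have hrest : ∀ ψ ∈ Finset.univ.erase o,
      ((m ψ : ℂ) * (ψ : G → ℂ) u).re ≤ 0 := fun ψ hψ => by
    rcases Nat.eq_zero_or_pos (m ψ) with e | e
    · simp [e]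
    have hne' : (ψ : G → ℂ) ≠ fun _ => 1 := fun e' => (Finset.mem_erase.1 hψ).1 (Subtype.ext e')
    have hle : m ψ * deg ψ ≤ 3 := by
      have := Finset.single_le_sum (f := fun ψ => m ψ * deg ψ) (fun _ _ => Nat.zero_le _) hψ
      omega
    have hd3 : deg ψ ≤ 3 := le_trans (Nat.le_mul_of_pos_left _ e) hle
    by_cases hv' : (ψ : G → ℂ) u = 0
    · simp [hv']
    rw [value h ψ hne' hv']
    have : (deg ψ : ℝ) ≤ 3 := by exact_mod_cast hd3
    simp only [Complex.mul_re, Complex.natCast_re, Complex.natCast_im, zero_mul, sub_zero,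
      Complex.sub_re]
    have h4 : (4 : ℂ).re = 4 := rfl
    rw [h4]
    exact mul_nonpos_of_nonneg_of_nonpos (Nat.cast_nonneg _) (by linarith)
  have := congrArg Complex.re hu
  rw [Complex.add_re, Complex.re_sum] at this
  have hle := Finset.sum_nonpos hrest
  generalize ∑ x ∈ Finset.univ.erase o, ((m x : ℂ) * (x : G → ℂ) u).re = t at this hle
  norm_num [o] at this
  linarith

lemma nonneg_small (h : Drop u) (χ : IrrCharacter G) (hd : deg χ ≤ 2) :
    0 ≤ ((χ : G → ℂ) u).re := by
  by_cases hne : (χ : G → ℂ) = fun _ => 1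
  · simp [hne]
  by_cases hv : (χ : G → ℂ) u = 0
  · simp [hv]
  have h1 := deg_ne_one h χ hne
  have h2 := deg_ne_two h χ hne hv
  have h0 := deg_pos χ
  omega

lemma nz_cases (h : Drop u) (χ : IrrCharacter G) (hne : (χ : G → ℂ) ≠ fun _ => 1)
    (hv : (χ : G → ℂ) u ≠ 0) : deg χ = 3 ∨ 5 ≤ deg χ := by
  have h1 := deg_ne_one h χ hne
  have h2 := deg_ne_two h χ hne hv
  have h0 := deg_pos χ
  have h4 : deg χ ≠ 4 := fun e => hv (by rw [value h χ hne hv, e]; norm_num)
  omega

/-- A nonprincipal member of degree three that does not vanish at `u`. -/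
def IsThree (u : G) (φ : IrrCharacter G) : Prop := deg φ = 3 ∧ (φ : G → ℂ) u = -1

lemma three_ne_one {φ : IrrCharacter G} (hφ : IsThree u φ) : (φ : G → ℂ) ≠ fun _ => 1 := by
  intro e
  have := hφ.2
  rw [e] at this
  norm_num at this

theorem exists_three (h : Drop u) (hu : u ≠ 1) : ∃ φ : IrrCharacter G, IsThree u φ := by
  classical
  haveI := Fintype.ofFinite G
  by_contra hno
  push Not at hno
  have horth := CharAux.sum_irr_mul_conj_eq_zero (G := G) (g := u) (h := 1)
    fun hc => hu (isConj_one_left.1 hc)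
  set o : IrrCharacter G := ⟨fun _ => (1 : ℂ), Char.isIrrCharacter_one⟩
  have hre := congrArg Complex.re horth
  rw [Complex.re_sum, ← Finset.add_sum_erase _ _ (Finset.mem_univ o)] at hre
  have hnn : ∀ χ ∈ Finset.univ.erase o,
      0 ≤ ((χ : G → ℂ) u * conj ((χ : G → ℂ) 1)).re := fun χ hχ => by
    have hne : (χ : G → ℂ) ≠ fun _ => 1 := fun e => (Finset.mem_erase.1 hχ).1 (Subtype.ext e)
    by_cases hv : (χ : G → ℂ) u = 0
    · simp [hv]
    rcases nz_cases h χ hne hv with e | e
    · exact absurd ⟨e, by rw [value h χ hne hv, e]; norm_num⟩ (hno χ)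
    · have h5 : (5 : ℝ) ≤ deg χ := by exact_mod_cast e
      rw [value h χ hne hv, apply_one, Complex.conj_natCast]
      simp only [Complex.mul_re, Complex.natCast_re, Complex.natCast_im, mul_zero, sub_zero,
        Complex.sub_re]
      have h4 : (4 : ℂ).re = 4 := rfl
      rw [h4]
      nlinarith
  have := Finset.sum_nonneg hnn
  generalize ∑ x ∈ Finset.univ.erase o, ((x : G → ℂ) u * conj ((x : G → ℂ) 1)).re = t at this hre
  norm_num [o] at hre
  linarith

lemma classInner_swap [Fintype G] (χ φ ψ : IrrCharacter G) :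
    classInner (fun g => (χ : G → ℂ) g * conj ((φ : G → ℂ) g)) (ψ : G → ℂ) =
      conj (classInner (fun g => (ψ : G → ℂ) g * conj (conj ((φ : G → ℂ) g))) (χ : G → ℂ)) := by
  simp only [classInner, map_mul, map_sum, Complex.conj_conj, map_inv₀, map_natCast]
  congr 1
  exact Finset.sum_congr rfl fun g _ => by ring

lemma isThree_conj (h : Drop u) {φ : IrrCharacter G} (hφ : IsThree u φ) :
    ∃ φ' : IrrCharacter G, IsThree u φ' ∧ ∀ g, (φ' : G → ℂ) g = conj ((φ : G → ℂ) g) := by
  classical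
  haveI := Fintype.ofFinite G
  have hi : IsIrrCharacter G (fun g => conj ((φ : G → ℂ) g)) := by
    refine Char.isIrrCharacter_of_norm_one (Char.isCharacter_conj (Char.isCharacter_of_isIrr φ.2)) ?_
    have h1 := congrArg (starRingEnd ℂ) (Char.classInner_irr_self φ.2)
    simp only [classInner, map_mul, map_sum, map_inv₀, map_natCast, map_one] at h1
    simpa only [classInner] using h1
  refine ⟨⟨_, hi⟩, ⟨?_, ?_⟩, fun _ => rfl⟩
  · apply Char.charDegree_eq_of_apply_one
    show conj ((φ : G → ℂ) 1) = _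
    rw [apply_one, hφ.1, Complex.conj_natCast]
  · show conj ((φ : G → ℂ) u) = -1
    rw [hφ.2]; simp

/-- The degree is at most six and the character lies in a product of two of degree three. -/
theorem big_data (h : Drop u) (hu : u ≠ 1) {χ : IrrCharacter G}
    (hne : (χ : G → ℂ) ≠ fun _ => 1) (hv : (χ : G → ℂ) u ≠ 0) (h5 : 5 ≤ deg χ) :
    deg χ ≤ 6 ∧ ∃ ψ φ : IrrCharacter G, IsThree u ψ ∧ IsThree u φ ∧ ∀ [Fintype G],
      classInner (fun g => (ψ : G → ℂ) g * conj ((φ : G → ℂ) g)) (χ : G → ℂ) ≠ 0 := by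
  classical
  haveI := Fintype.ofFinite G
  obtain ⟨φ, hφ⟩ := exists_three h hu
  obtain ⟨φ', hφ', hconj⟩ := isThree_conj h hφ
  obtain ⟨m, hdec, -, hm⟩ := exists_coords χ φ
  have hu' := congrArg Complex.re (hdec u)
  rw [value h χ hne hv, hφ.2, Complex.re_sum] at hu'
  have h5' : (5 : ℝ) ≤ deg χ := by exact_mod_cast h5
  obtain ⟨ψ, -, hψ⟩ := Finset.exists_lt_of_sum_lt
    (show ∑ ψ : IrrCharacter G, ((m ψ : ℂ) * (ψ : G → ℂ) u).re < ∑ _ψ : IrrCharacter G, (0 : ℝ) by
      rw [← hu', Finset.sum_const_zero]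
      norm_num
      linarith)
  have hmpos : m ψ ≠ 0 := fun e => by simp [e] at hψ
  have hψne : (ψ : G → ℂ) ≠ fun _ => 1 := fun e => by
    rw [e] at hψ
    simp only [mul_one, Complex.natCast_re] at hψ
    exact absurd hψ (not_lt.2 (Nat.cast_nonneg _))
  have hψv : (ψ : G → ℂ) u ≠ 0 := fun e => by simp [e] at hψ
  have hψ3 : IsThree u ψ := by
    rcases nz_cases h ψ hψne hψv with e | e
    · exact ⟨e, by rw [value h ψ hψne hψv, e]; norm_num⟩
    · exfalso
      have h5'' : (5 : ℝ) ≤ deg ψ := by exact_mod_cast e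
      rw [value h ψ hψne hψv] at hψ
      simp only [Complex.mul_re, Complex.natCast_re, Complex.natCast_im, zero_mul, sub_zero,
        Complex.sub_re] at hψ
      have h4 : (4 : ℂ).re = 4 := rfl
      rw [h4] at hψ
      have : 0 ≤ (m ψ : ℝ) * ((deg ψ : ℝ) - 4) := mul_nonneg (Nat.cast_nonneg _) (by linarith)
      linarith
  have hin : classInner (fun g => (ψ : G → ℂ) g * conj ((φ' : G → ℂ) g)) (χ : G → ℂ) ≠ 0 := by
    intro e
    apply hmpos
    have := hm ψ
    rw [classInner_swap] at this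
    simp only [← hconj] at this
    rw [e, map_zero] at this
    exact_mod_cast this
  refine ⟨?_, ψ, φ', hψ3, hφ', fun {inst} => by
    convert hin⟩
  obtain ⟨m', hdec', hdeg', hm'⟩ := exists_coords ψ φ'
  by_contra h7
  rw [hψ3.1, hφ'.1, ← Finset.add_sum_erase _ _ (Finset.mem_univ χ)] at hdeg'
  have hpos : 1 ≤ m' χ := by
    rcases Nat.eq_zero_or_pos (m' χ) with e | e
    · exact absurd (by rw [← hm' χ, e, Nat.cast_zero]) hin
    · exact e
  have hle : deg χ ≤ m' χ * deg χ := Nat.le_mul_of_pos_left _ hpos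
  have hu2 := congrArg Complex.re (hdec' u)
  rw [hψ3.2, hφ'.2, Complex.re_sum, ← Finset.add_sum_erase _ _ (Finset.mem_univ χ)] at hu2
  have hnn : ∀ η ∈ Finset.univ.erase χ, 0 ≤ ((m' η : ℂ) * (η : G → ℂ) u).re := fun η hη => by
    rcases Nat.eq_zero_or_pos (m' η) with e | e
    · simp [e]
    have hle' : m' η * deg η ≤ 2 := by
      have := Finset.single_le_sum (f := fun ψ => m' ψ * deg ψ) (fun _ _ => Nat.zero_le _) hη
      omega
    have hd2 : deg η ≤ 2 := le_trans (Nat.le_mul_of_pos_left _ e) hle'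
    have := nonneg_small h η hd2
    simp only [Complex.mul_re, Complex.natCast_re, Complex.natCast_im, zero_mul, sub_zero]
    positivity
  have := Finset.sum_nonneg hnn
  generalize ∑ x ∈ Finset.univ.erase χ, ((m' x : ℂ) * (x : G → ℂ) u).re = t at this hu2
  rw [value h χ hne hv] at hu2
  simp only [Complex.mul_re, Complex.natCast_re, Complex.natCast_im, zero_mul, sub_zero,
    Complex.sub_re] at hu2
  have h4 : (4 : ℂ).re = 4 := rfl
  rw [h4] at hu2
  norm_num at hu2
  have h7' : (7 : ℝ) ≤ deg χ := by exact_mod_cast (by omega : 7 ≤ deg χ)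
  have hp' : (1 : ℝ) ≤ m' χ := by exact_mod_cast hpos
  have hme : (1 : ℝ) * 3 ≤ (m' χ : ℝ) * ((deg χ : ℝ) - 4) := by
    apply mul_le_mul hp' (by linarith) (by norm_num) (by linarith)
  linarith

/-- The trichotomy of the nonvanishing members. -/
theorem nz_trichotomy (h : Drop u) (hu : u ≠ 1) (χ : IrrCharacter G)
    (hne : (χ : G → ℂ) ≠ fun _ => 1) (hv : (χ : G → ℂ) u ≠ 0) :
    (deg χ = 3 ∧ (χ : G → ℂ) u = -1) ∨ (deg χ = 5 ∧ (χ : G → ℂ) u = 1) ∨
      (deg χ = 6 ∧ (χ : G → ℂ) u = 2) := by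
  have hval := value h χ hne hv
  rcases nz_cases h χ hne hv with e | e
  · left; exact ⟨e, by rw [hval, e]; norm_num⟩
  · obtain ⟨h6, -⟩ := big_data h hu hne hv e
    rcases (by omega : deg χ = 5 ∨ deg χ = 6) with e' | e'
    · right; left; exact ⟨e', by rw [hval, e']; norm_num⟩
    · right; right; exact ⟨e', by rw [hval, e']; norm_num⟩

end Cfsg.Agent.Lib.ConstFour
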