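import Cfsg.Agent.Lib.ConstFour.Quotient
import Cfsg.Agent.Lib.Involution.ZStarBasic
import Cfsg.Agent.Lib.Classical.Order
import Mathlib.GroupTheory.Transfer

/-!
# An element at which every nonvanishing nonprincipal character drops by four: the lift

All preimages of the class of the involution are conjugate, whence the kernel is trivial or is an
odd abelian group extended by the central involution of a double cover.
-/

set_option autoImplicit false
set_option linter.unusedSectionVars false
set_option linter.style.haveILetI false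

open Cfsg Cfsg.Agent.Lib

namespace Cfsg.Agent.Lib.ConstFour

universe u

/-- A fixed-point-free automorphism of order two of a group of odd order inverts it. -/
theorem conj_eq_inv {G : Type u} [Group G] [Finite G] (W : Subgroup G) (s : G)
    (hmem : ∀ w ∈ W, s * w * s⁻¹ ∈ W) (hs2 : ∀ w ∈ W, s * s * w = w * (s * s))
    (hfix : ∀ w ∈ W, s * w = w * s → w = 1) : ∀ w ∈ W, s * w * s⁻¹ = w⁻¹ := by
  let f : W → W := fun a => ⟨(a : G)⁻¹ * (s * a * s⁻¹), mul_mem (inv_mem a.2) (hmem a a.2)⟩
  have hinj : Function.Injective f := by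
    intro a b e
    have e' : (a : G)⁻¹ * (s * a * s⁻¹) = (b : G)⁻¹ * (s * b * s⁻¹) := congrArg Subtype.val e
    have hfx : (b : G) * (a : G)⁻¹ = 1 := by
      refine hfix _ (mul_mem b.2 (inv_mem a.2)) ?_
      calc s * ((b : G) * (a : G)⁻¹)
          = (s * b * s⁻¹) * (s * a * s⁻¹)⁻¹ * s := by group
        _ = (b : G) * (a : G)⁻¹ * s := by
          rw [show s * b * s⁻¹ = (b : G) * ((a : G)⁻¹ * (s * a * s⁻¹)) by rw [e']; group]
          group
    exact Subtype.ext (mul_inv_eq_one.1 hfx).symm
  intro w hw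
  obtain ⟨⟨a, ha⟩, hfa⟩ := (Finite.injective_iff_surjective.1 hinj) ⟨w, hw⟩
  obtain rfl : a⁻¹ * (s * a * s⁻¹) = w := congrArg Subtype.val hfa
  calc s * (a⁻¹ * (s * a * s⁻¹)) * s⁻¹
      = (s * a * s⁻¹)⁻¹ * (s * s * a) * (s * s)⁻¹ := by group
    _ = (a⁻¹ * (s * a * s⁻¹))⁻¹ := by rw [hs2 a ha]; group

/-- The involutions of a simple group of order sixty form one class; it has no element of order
four. -/
theorem sixty_facts {Q : Type u} [Group Q] [Finite Q] [IsSimpleGroup Q] (hQ : Nat.card Q = 60)
    {t : Q} (ht : t * t = 1) (ht1 : t ≠ 1)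
    (hC : Nat.card (Subgroup.centralizer ({t} : Set Q)) = 4) :
    (∀ q : Q, q * q = 1 → q ≠ 1 → IsConj q t) ∧ ∀ q : Q, q ^ 4 = 1 → q ^ 2 = 1 := by
  classical
  haveI := Fintype.ofFinite Q
  obtain ⟨e⟩ := Lib.SmallSimple.nonempty_mulEquiv_alternatingFive hQ
  refine ⟨fun q hq hq1 => ?_, fun q hq => ?_⟩
  · have hcl := CharAux.card_conj_mul_card_centralizer t
    rw [hC, hQ] at hcl
    have hinv : (Finset.univ.filter fun x : Q => x * x = 1 ∧ x ≠ 1).card = 15 := by
      have h5 : (Finset.univ.filter
          fun x : alternatingGroup (Fin 5) => x * x = 1 ∧ x ≠ 1).card = 15 := by decide +kernel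
      rw [← h5]
      refine Finset.card_equiv e.toEquiv fun x => ?_
      simp [← map_mul]
    have hsub : (Finset.univ.filter fun x : Q => IsConj x t) ⊆
        Finset.univ.filter fun x : Q => x * x = 1 ∧ x ≠ 1 := by
      intro x hx
      simp only [Finset.mem_filter, Finset.mem_univ, true_and] at hx ⊢
      obtain ⟨c, rfl⟩ := isConj_iff.1 hx.symm
      exact ⟨by rw [show c * t * c⁻¹ * (c * t * c⁻¹) = c * (t * t) * c⁻¹ by group, ht]; group,
        fun e' => ht1 (conj_eq_one_iff.1 e')⟩
    have heq := Finset.eq_of_subset_of_card_le hsub (by omega)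
    have hmem : q ∈ Finset.univ.filter fun x : Q => x * x = 1 ∧ x ≠ 1 :=
      Finset.mem_filter.2 ⟨Finset.mem_univ q, hq, hq1⟩
    rw [← heq] at hmem
    exact (Finset.mem_filter.1 hmem).2
  · apply e.injective
    rw [map_pow, map_one]
    exact ZassSL25.alt_five_sq _ (by rw [← map_pow, hq, map_one])

/-- A perfect group of order sixty is simple. -/
theorem simple_of_sixty {Q : Type u} [Group Q] [Finite Q] (hp : commutator Q = ⊤)
    (hQ : Nat.card Q = 60) : IsSimpleGroup Q := by
  haveI : Nontrivial Q := Finite.one_lt_card_iff_nontrivial.1 (by omega)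
  refine ⟨fun N hN => ?_⟩
  have hp' : commutator (Q ⧸ N) = ⊤ := by
    rw [_root_.commutator_def, ← MonoidHom.range_eq_top.2 (QuotientGroup.mk'_surjective N),
      MonoidHom.range_eq_map, ← Subgroup.map_commutator, ← _root_.commutator_def, hp]
  have hi : Nat.card N * N.index = 60 := hQ ▸ N.card_mul_index
  rcases ZassSL25.perfect_small hp'
    (show N.index ∣ 120 from (Dvd.intro_left _ hi).trans (by norm_num)) with e | e | e
  · exact Or.inr (Subgroup.index_eq_one.1 e)
  · exact Or.inl (Subgroup.eq_bot_of_card_eq N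
      (by rw [show N.index = 60 from e] at hi; omega))
  · rw [show N.index = 120 from e] at hi; omega

variable {G : Type u} [Group G] [Finite G] {u : G}

/-- The two structures. -/
theorem structure_drop (h : Drop u) (hu : u ≠ 1) :
    IsMulCommutative ↥(oddCore G) ∧
      ((oddCore G = ⊥ ∧ IsSimpleGroup G ∧ Nat.card G = 60 ∧ orderOf u = 2) ∨
        (orderOf u = 4 ∧ ∃ (N : Subgroup G) (_ : N.Normal), N = oddCore G ∧
          Nonempty (ZassSL25.IcoCover (G ⧸ N)))) := by
  classical
  haveI : Fact (Nat.Prime 2) := ⟨Nat.prime_two⟩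
  haveI := Fintype.ofFinite G
  obtain ⟨K, hKn, hnot, hsq, hC, h60, hCb, hperfQ, xb, hxb, hxub, hxx, hxc⟩ :=
    quotient_data h hu
  haveI := Fintype.ofFinite (G ⧸ K)
  haveI := simple_of_sixty hperfQ h60
  set q := QuotientGroup.mk' K
  set ub : G ⧸ K := q u
  have hub1 : ub ≠ 1 := fun e => hnot ((QuotientGroup.eq_one_iff u).1 e)
  have hub2 : ub * ub = 1 := by
    rw [← map_mul]; exact (QuotientGroup.eq_one_iff _).2 hsq
  obtain ⟨hone, hfour⟩ := sixty_facts h60 hub2 hub1 hCb
  have hcardG : Nat.card G = 60 * Nat.card K := by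
    rw [K.card_eq_card_quotient_mul_card_subgroup, h60]
  -- every preimage of an involution is conjugate to `u`
  have hlift : ∀ g : G, q g * q g = 1 → q g ≠ 1 → IsConj g u := by
    intro g hg1 hg2
    have hclG := CharAux.card_conj_mul_card_centralizer u
    rw [hC, hcardG] at hclG
    have hclQ := CharAux.card_conj_mul_card_centralizer ub
    rw [show Nat.card (Subgroup.centralizer ({ub} : Set (G ⧸ K))) = 4 from hCb, h60] at hclQ
    have hpre : (Finset.univ.filter fun y : G => IsConj (q y) ub).card = 15 * Nat.card K := by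
      have := Nat.card_congr (QuotientGroup.preimageMkEquivSubgroupProdSet K
        {z : G ⧸ K | IsConj z ub})
      rw [Nat.card_prod] at this
      have e1 : Nat.card (QuotientGroup.mk ⁻¹' {z : G ⧸ K | IsConj z ub} : Set G) =
          (Finset.univ.filter fun y : G => IsConj (q y) ub).card := by
        rw [Nat.card_eq_fintype_card, ← Set.toFinset_card]
        congr 1
        ext y
        simp [q]
      have e2 : Nat.card {z : G ⧸ K | IsConj z ub} = 15 := by
        refine Eq.trans ?_ (Nat.eq_of_mul_eq_mul_right (by norm_num : 0 < 4)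
          (hclQ.trans (by norm_num : 60 = 15 * 4)))
        rw [Nat.card_eq_fintype_card, ← Set.toFinset_card]
        congr 1
        ext
        simp
      rw [e1, e2] at this
      rw [this, mul_comm]
    have hsub : (Finset.univ.filter fun y : G => IsConj y u) ⊆
        Finset.univ.filter fun y : G => IsConj (q y) ub := by
      intro y hy
      simp only [Finset.mem_filter, Finset.mem_univ, true_and] at hy ⊢
      exact MonoidHom.map_isConj q hy
    have heq := Finset.eq_of_subset_of_card_le hsub (by omega)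
    have hmem : g ∈ Finset.univ.filter fun y : G => IsConj (q y) ub :=
      Finset.mem_filter.2 ⟨Finset.mem_univ g, hone _ hg1 hg2⟩
    rw [← heq] at hmem
    exact (Finset.mem_filter.1 hmem).2
  obtain ⟨x, rfl⟩ := QuotientGroup.mk'_surjective K xb
  change IsConj (q x) ub at hxb
  change q x * q x = 1 at hxx
  have hqx1 : q x ≠ 1 := fun e => hub1 (by rw [e] at hxb; exact isConj_one_right.1 hxb)
  have hxu : IsConj (q (x * u)) ub := by rw [map_mul]; exact hxub
  have hqxu1 : q (x * u) ≠ 1 := fun e => hub1 (by rw [e] at hxu; exact isConj_one_right.1 hxu)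
  have hqxu2 : q (x * u) * q (x * u) = 1 := by
    rw [map_mul]
    change q x * ub * (q x * ub) = 1
    have : ub * q x = q x * ub := hxc.symm
    rw [mul_assoc, ← mul_assoc ub (q x) ub, this, mul_assoc (q x) ub ub, hub2, mul_one, hxx]
  by_cases huu : u * u = 1
  · -- trivial kernel
    have hinvol : ∀ g : G, q g * q g = 1 → q g ≠ 1 → g * g = 1 := fun g a b => by
      obtain ⟨c, rfl⟩ := isConj_iff.1 (hlift g a b).symm
      rw [show c * u * c⁻¹ * (c * u * c⁻¹) = c * (u * u) * c⁻¹ by group, huu]; group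
    have hxx' : x * x = 1 := hinvol x hxx hqx1
    have hxu' : x * u * (x * u) = 1 := hinvol _ hqxu2 hqxu1
    have hux : u * x = x * u := by
      have h1 := inv_eq_of_mul_eq_one_right hxu'
      rwa [mul_inv_rev, inv_eq_of_mul_eq_one_right huu, inv_eq_of_mul_eq_one_right hxx'] at h1
    have hcoset : ∀ k ∈ K, ∀ s : G, q s * q s = 1 → q s ≠ 1 → s * k * s = k⁻¹ := by
      intro k hk s a b
      have e : q (s * k) = q s := by
        rw [map_mul, show q k = 1 from (QuotientGroup.eq_one_iff k).2 hk, mul_one]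
      have := hinvol (s * k) (e ▸ a) (e ▸ b)
      exact eq_inv_of_mul_eq_one_left (by rw [← this]; group)
    have hK : K = ⊥ := by
      rw [Subgroup.eq_bot_iff_forall]
      intro k hk
      by_contra hk1
      have h1 := hcoset k hk u hub2 hub1
      have h2 := hcoset k hk x hxx hqx1
      have h3 := hcoset k hk (x * u) hqxu2 hqxu1
      have hui : u⁻¹ = u := inv_eq_of_mul_eq_one_right huu
      have hxi : x⁻¹ = x := inv_eq_of_mul_eq_one_right hxx'
      have hkk : k⁻¹ = k := by
        rw [← h3]
        calc x * u * k * (x * u) = x * u * k * (u * x) := by rw [hux]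
          _ = x * (u * k * u) * x := by group
          _ = (x * k * x)⁻¹ := by rw [h1]; simp [mul_assoc, hxi]
          _ = k := by rw [h2, inv_inv]
      have hku : k * u = u * k := by
        calc k * u = u * (u * k * u) := by simp only [← mul_assoc, huu, one_mul]
          _ = u * k := by rw [h1, hkk]
      have hsub : ({1, u, x, x * u, k} : Finset G) ⊆
          (Finset.univ.filter fun y : G => y ∈ Subgroup.centralizer ({u} : Set G)) := by
        intro y hy
        simp only [Finset.mem_insert, Finset.mem_singleton] at hy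
        simp only [Finset.mem_filter, Finset.mem_univ, true_and,
          Subgroup.mem_centralizer_singleton_iff]
        rcases hy with rfl | rfl | rfl | rfl | rfl
        · simp
        · rfl
        · exact hux.symm
        · rw [mul_assoc, ← mul_assoc u x u, hux]
          simp only [mul_assoc]
        · exact hku
      have hqk : q k = 1 := (QuotientGroup.eq_one_iff k).2 hk
      have hqne : q x ≠ ub := fun e => hqxu1 (by rw [map_mul, e]; exact hub2)
      have hqne2 : q (x * u) ≠ ub := fun e => hqx1 (by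
        rw [map_mul] at e
        exact mul_eq_right.1 e)
      have hqne3 : q x ≠ q (x * u) := fun e => hub1 (by
        rw [map_mul] at e
        exact mul_eq_left.1 e.symm)
      have h5 : ({1, u, x, x * u, k} : Finset G).card = 5 := by
        have n1 : (1 : G) ∉ ({u, x, x * u, k} : Finset G) := by
          simp only [Finset.mem_insert, Finset.mem_singleton, not_or]
          exact ⟨hu.symm, fun e => hqx1 (by rw [← e, map_one]),
            fun e => hqxu1 (by rw [← e, map_one]), fun e => hk1 e.symm⟩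
        have n2 : u ∉ ({x, x * u, k} : Finset G) := by
          simp only [Finset.mem_insert, Finset.mem_singleton, not_or]
          exact ⟨fun e => hqne (congrArg q e).symm, fun e => hqne2 (congrArg q e).symm,
            fun e => hnot (e ▸ hk)⟩
        have n3 : x ∉ ({x * u, k} : Finset G) := by
          simp only [Finset.mem_insert, Finset.mem_singleton, not_or]
          exact ⟨fun e => hqne3 (congrArg q e), fun e => hqx1 (e ▸ hqk)⟩
        have n4 : x * u ∉ ({k} : Finset G) := by
          simp only [Finset.mem_singleton]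
          exact fun e => hqxu1 (e ▸ hqk)
        rw [Finset.card_insert_of_notMem n1, Finset.card_insert_of_notMem n2,
          Finset.card_insert_of_notMem n3, Finset.card_insert_of_notMem n4, Finset.card_singleton]
      have := Finset.card_le_card hsub
      rw [h5, ← Fintype.card_subtype, ← Nat.card_eq_fintype_card] at this
      omega
    subst hK
    have hG : Nat.card G = 60 := by rw [hcardG, Subgroup.card_bot, mul_one]
    haveI : IsSimpleGroup G := by
      refine simple_of_sixty (perfect h) hG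
    have hO : oddCore G = ⊥ := by
      rw [Involution.oddCore_eq_bot_iff]
      intro N hN hodd
      refine hN.eq_bot_or_eq_top.resolve_right fun e => ?_
      subst e
      rw [Subgroup.card_top, hG] at hodd
      exact absurd hodd (by decide)
    refine ⟨?_, Or.inl ⟨hO, inferInstance, hG, orderOf_eq_prime (by rw [sq, huu]) hu⟩⟩
    exact ⟨⟨fun a b => by
      rw [Subtype.ext_iff]
      have ha := a.2; have hb := b.2
      simp only [hO, Subgroup.mem_bot] at ha hb
      simp [ha, hb]⟩⟩
  -- the element has order four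
  have hcu : Nat.card (Subgroup.zpowers u) ∣ 4 := hC ▸ Subgroup.card_dvd_of_le
    (Subgroup.zpowers_le.2 (Subgroup.mem_centralizer_singleton_iff.2 rfl))
  have huo : orderOf u = 4 := by
    rw [Nat.card_zpowers] at hcu
    have h4 : orderOf u ∈ Nat.divisors 4 := Nat.mem_divisors.2 ⟨hcu, by norm_num⟩
    rw [show Nat.divisors 4 = {1, 2, 4} by decide] at h4
    simp only [Finset.mem_insert, Finset.mem_singleton] at h4
    rcases h4 with e | e | e
    · exact absurd (orderOf_eq_one_iff.1 e) hu
    · exact absurd (by rw [← sq, ← e, pow_orderOf_eq_one]) huu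
    · exact e
  have hzu : Subgroup.centralizer ({u} : Set G) = Subgroup.zpowers u :=
    (Subgroup.eq_of_le_of_card_ge
      (Subgroup.zpowers_le.2 (Subgroup.mem_centralizer_singleton_iff.2 rfl))
      (by rw [hC, Nat.card_zpowers, huo])).symm
  have hord : ∀ g : G, q g * q g = 1 → q g ≠ 1 →
      orderOf g = 4 ∧ ∀ w : G, w * g = g * w → ∃ k < 4, w = g ^ k := by
    intro g a b
    obtain ⟨c, rfl⟩ := isConj_iff.1 (hlift g a b).symm
    have ho : orderOf (c * u * c⁻¹) = 4 := by
      rw [show c * u * c⁻¹ = MulAut.conj c u from rfl, MulEquiv.orderOf_eq, huo]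
    refine ⟨ho, fun w hw => ?_⟩
    have hw' : c⁻¹ * w * c ∈ Subgroup.zpowers u := by
      rw [← hzu, Subgroup.mem_centralizer_singleton_iff]
      calc c⁻¹ * w * c * u = c⁻¹ * (w * (c * u * c⁻¹)) * c := by group
        _ = c⁻¹ * (c * u * c⁻¹ * w) * c := by rw [hw]
        _ = u * (c⁻¹ * w * c) := by group
    rw [mem_zpowers_iff_mem_range_orderOf, huo, Finset.mem_image] at hw'
    obtain ⟨k, hk, hk'⟩ := hw'
    refine ⟨k, Finset.mem_range.1 hk, ?_⟩
    rw [conj_pow, hk']; group
  set z := u * u with hzdef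
  have hz1 : z ≠ 1 := huu
  have hzo : orderOf z = 2 := orderOf_eq_prime
    (by rw [hzdef, ← sq, ← pow_mul, show 2 * 2 = 4 by rfl, ← huo, pow_orderOf_eq_one]) hz1
  have hup : IsPGroup 2 (Subgroup.zpowers u) :=
    IsPGroup.of_card (n := 2) (by rw [Nat.card_zpowers, huo]; norm_num)
  obtain ⟨S, hS⟩ := hup.exists_le_sylow
  have huS : u ∈ (S : Subgroup G) := hS (Subgroup.mem_zpowers u)
  have hout : ∀ s ∈ (S : Subgroup G), q s ≠ 1 → q s * q s = 1 := by
    intro s hs hs1
    obtain ⟨k, hk⟩ := S.2 ⟨s, hs⟩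
    have hk' : (q s) ^ 2 ^ k = 1 := by
      rw [← map_pow, show s ^ 2 ^ k = 1 from congrArg Subtype.val hk, map_one]
    have hd : orderOf (q s) ∣ 4 := by
      have h1 := orderOf_dvd_of_pow_eq_one hk'
      have h2 : orderOf (q s) ∣ 4 * 15 := by
        rw [show 4 * 15 = Nat.card (G ⧸ K) by rw [h60]]; exact orderOf_dvd_natCard _
      exact (Nat.Coprime.dvd_of_dvd_mul_right
        ((Nat.Coprime.pow_left k (by norm_num : Nat.Coprime 2 15)).coprime_dvd_left h1) h2)
    rw [← sq]
    exact hfour _ (orderOf_dvd_iff_pow_eq_one.1 hd)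
  obtain ⟨c, hcS, hco⟩ : ∃ c : (S : Subgroup G), c ∈ Subgroup.center (S : Subgroup G) ∧ orderOf c = 2 := by
    haveI : Nontrivial (S : Subgroup G) :=
      ⟨⟨⟨u, huS⟩, 1, fun e => hu (congrArg Subtype.val e)⟩⟩
    haveI := IsPGroup.center_nontrivial S.2
    have hd : 2 ∣ Nat.card (Subgroup.center (S : Subgroup G)) := by
      obtain ⟨j, hj⟩ := IsPGroup.iff_card.1 (S.2.to_subgroup (Subgroup.center (S : Subgroup G)))
      rw [hj]
      rcases Nat.eq_zero_or_pos j with rfl | hj0
      · rw [pow_zero] at hj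
        exact absurd hj (Finite.one_lt_card.ne')
      · exact dvd_pow_self 2 hj0.ne'
    obtain ⟨c, hc⟩ := exists_prime_orderOf_dvd_card' 2 hd
    exact ⟨c, c.2, (Subgroup.orderOf_coe c).trans hc⟩
  have hcg : orderOf (c : G) = 2 := by rw [Subgroup.orderOf_coe]; exact hco
  have hsquare : ∀ s ∈ (S : Subgroup G), q s ≠ 1 → s * s = (c : G) := by
    intro s hs hs1
    obtain ⟨ho, hw⟩ := hord s (hout s hs hs1) hs1
    obtain ⟨k, hk4, hck⟩ := hw (c : G)
      (congrArg Subtype.val (Subgroup.mem_center_iff.1 hcS ⟨s, hs⟩)).symm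
    have hk2 : k = 2 := by
      have h1 : s ^ (2 * k) = 1 := by
        rw [mul_comm, pow_mul, ← hck]
        exact orderOf_dvd_iff_pow_eq_one.1 hcg.dvd
      have h2 := orderOf_dvd_of_pow_eq_one h1
      rw [ho] at h2
      have h3 : k ≠ 0 := fun e => by rw [e, pow_zero] at hck; rw [hck, orderOf_one] at hcg; omega
      omega
    rw [hck, hk2, sq]
  have hsz : ∀ s ∈ (S : Subgroup G), q s ≠ 1 → s * s = z := fun s hs hs1 =>
    (hsquare s hs hs1).trans (hsquare u huS hub1).symm
  have hT : 4 ∣ Nat.card ((S : Subgroup G).map q) := by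
    let T := S.mapSurjective (QuotientGroup.mk'_surjective K)
    have hT := T.card_eq_multiplicity
    rw [Sylow.coe_mapSurjective] at hT
    rw [hT, h60, show (60 : ℕ) = 2 ^ 2 * 15 by norm_num, Nat.factorization_mul (by norm_num)
      (by norm_num), Finsupp.add_apply, Nat.Prime.factorization_pow Nat.prime_two,
      Finsupp.single_eq_same, Nat.factorization_eq_zero_of_not_dvd (n := 15) (by norm_num)]
    norm_num
  obtain ⟨y, hyS, hy1, hyu⟩ : ∃ y ∈ (S : Subgroup G), q y ≠ 1 ∧ q y ≠ ub := by
    by_contra hall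
    push Not at hall
    have hle : Nat.card ((S : Subgroup G).map q) ≤ 2 := by
      rw [← SetLike.coe_sort_coe, Nat.card_coe_set_eq]
      refine (Set.ncard_le_ncard (t := {1, ub}) ?_ (Set.toFinite _)).trans
        (Set.ncard_pair hub1.symm).le
      rintro _ ⟨s, hs, rfl⟩
      rcases eq_or_ne (q s) 1 with e | e
      · exact Or.inl e
      · exact Or.inr (hall s hs e)
    have := Nat.le_of_dvd Nat.card_pos hT
    omega
  have huy : u * y ∈ (S : Subgroup G) := mul_mem huS hyS
  have huy1 : q (u * y) ≠ 1 := fun e => hyu (by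
    rw [map_mul] at e
    exact (eq_inv_of_mul_eq_one_right e).trans (inv_eq_of_mul_eq_one_right hub2))
  have hkerS : ∀ t ∈ (S : Subgroup G), q t = 1 → t = 1 ∨ t = z := by
    intro t ht ht1
    have hinv : ∀ s ∈ (S : Subgroup G), q s ≠ 1 → s⁻¹ * t * s = t⁻¹ := by
      intro s hs hs1
      have hst : q (s * t) ≠ 1 := by rw [map_mul, ht1, mul_one]; exact hs1
      have := (hsz (s * t) (mul_mem hs ht) hst).trans (hsz s hs hs1).symm
      have h3 : t * s * t = s := by
        have h4 : s * (t * s * t) = s * s := by rw [← this]; group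
        exact mul_left_cancel h4
      calc s⁻¹ * t * s = s⁻¹ * (t * s * t) * t⁻¹ := by group
        _ = t⁻¹ := by rw [h3]; group
    have ha := hinv u huS hub1
    have hb := hinv y hyS hy1
    have hc' := hinv (u * y) huy huy1
    have htt : t⁻¹ = t := by
      rw [← hc']
      calc (u * y)⁻¹ * t * (u * y) = y⁻¹ * (u⁻¹ * t * u) * y := by group
        _ = (y⁻¹ * t * y)⁻¹ := by rw [ha]; group
        _ = t := by rw [hb, inv_inv]
    have hcomm : t * u = u * t := by
      calc t * u = u * (u⁻¹ * t * u) := by group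
        _ = u * t := by rw [ha, htt]
    obtain ⟨k, hk4, hk⟩ := (hord u hub2 hub1).2 t hcomm
    interval_cases k
    · exact Or.inl (by simpa using hk)
    · exact absurd (by rw [hk, pow_one] at ht1; exact ht1) hub1
    · exact Or.inr (by rw [hk, sq])
    · exfalso
      rw [hk, map_pow, pow_succ, sq] at ht1
      change ub * ub * ub = 1 at ht1
      rw [hub2, one_mul] at ht1
      exact hub1 ht1
  have hzK : z ∈ K := hsq
  have hzS : z ∈ (S : Subgroup G) := mul_mem huS huS
  have hS8 : Nat.card (S : Subgroup G) ∣ 8 := by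
    set f := q.comp (S : Subgroup G).subtype
    have hker : Nat.card f.ker ≤ 2 := by
      rw [← SetLike.coe_sort_coe, Nat.card_coe_set_eq,
        ← Set.ncard_image_of_injective _ (Subgroup.subtype_injective (S : Subgroup G))]
      refine (Set.ncard_le_ncard (t := {1, z}) ?_ (Set.toFinite _)).trans
        (Set.ncard_pair hz1.symm).le
      rintro _ ⟨⟨t, ht⟩, hm, rfl⟩
      exact hkerS t ht hm
    have hrange : Nat.card f.range ∣ 4 := by
      obtain ⟨j, hj⟩ := IsPGroup.iff_card.1 (S.2.map q)
      have hr : f.range = (S : Subgroup G).map q := by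
        rw [MonoidHom.range_comp, Subgroup.range_subtype]
      rw [hr, hj]
      have hd := Subgroup.card_subgroup_dvd_card ((S : Subgroup G).map q)
      rw [hj, h60, show (60 : ℕ) = 4 * 15 by norm_num] at hd
      exact Nat.Coprime.dvd_of_dvd_mul_right
        (Nat.Coprime.pow_left j (by norm_num : Nat.Coprime 2 15)) hd
    have hk := f.ker.card_mul_index
    rw [Subgroup.index_ker] at hk
    have hkp : Nat.card f.ker ∣ 2 := by
      rcases (by have := Nat.card_pos (α := f.ker); omega :
        Nat.card f.ker = 1 ∨ Nat.card f.ker = 2) with e | e <;> rw [e] <;> norm_num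
    rw [← hk, show 8 = 2 * 4 by rfl]
    exact Nat.mul_dvd_mul hkp hrange
  have hK2 : ¬ 4 ∣ Nat.card K := by
    intro h4
    have h16 : 2 ^ 4 ∣ Nat.card G := by
      rw [hcardG, show 2 ^ 4 = 4 * 4 by rfl]
      exact Nat.mul_dvd_mul (by norm_num) h4
    have := (S.pow_dvd_card_of_pow_dvd_card h16).trans hS8
    norm_num at this
  obtain ⟨P⟩ : Nonempty (Sylow 2 K) := inferInstance
  have hP2 : Nat.card (P : Subgroup K) = 2 := by
    obtain ⟨j, hj⟩ := IsPGroup.iff_card.1 P.2
    have hd := Subgroup.card_subgroup_dvd_card (P : Subgroup K)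
    have h2 : 2 ∣ Nat.card (P : Subgroup K) := by
      refine P.dvd_card_of_dvd_card ?_
      rw [← hzo, ← Subgroup.orderOf_mk z hzK]
      exact orderOf_dvd_natCard _
    rw [hj] at hd h2 ⊢
    rcases j with _ | _ | j
    · norm_num at h2
    · rfl
    · exact absurd ((show (4 : ℕ) ∣ 2 ^ (j + 2) from ⟨2 ^ j, by ring⟩).trans hd) hK2
  have hNC : Subgroup.normalizer ((P : Subgroup K) : Set K) ≤
      Subgroup.centralizer ((P : Subgroup K) : Set K) := by
    intro n hn
    rw [Subgroup.mem_centralizer_iff]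
    intro w hw
    rcases eq_or_ne w 1 with rfl | hw1
    · simp
    have hw' : n * w * n⁻¹ ∈ (P : Subgroup K) := (Subgroup.mem_normalizer_iff.1 hn w).1 hw
    have hw'1 : n * w * n⁻¹ ≠ 1 := fun e => hw1 (conj_eq_one_iff.1 e)
    obtain ⟨a, -, huniq⟩ := (Nat.card_eq_two_iff' (1 : (P : Subgroup K))).1 hP2
    have e1 := huniq ⟨w, hw⟩ (fun e => hw1 (congrArg Subtype.val e))
    have e2 := huniq ⟨_, hw'⟩ (fun e => hw'1 (congrArg Subtype.val e))
    have e := congrArg Subtype.val (e1.trans e2.symm)
    simp only at e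
    conv_lhs => rw [e]
    group
  set O' := (MonoidHom.transferSylow P hNC).ker
  have hcompl : Subgroup.IsComplement' O' (P : Subgroup K) :=
    MonoidHom.ker_transferSylow_isComplement' P hNC
  have hO'idx : O'.index = 2 := by rw [Subgroup.IsComplement'.index_eq_card hcompl.symm, hP2]
  have hO'odd : Odd (Nat.card O') := by
    rw [← Nat.not_even_iff_odd, even_iff_two_dvd]
    intro h2
    apply hK2
    have := O'.card_mul_index
    rw [hO'idx] at this
    rw [← this, show (4 : ℕ) = 2 * 2 by rfl]
    exact Nat.mul_dvd_mul h2 dvd_rfl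
  have hOmem : ∀ k : K, k ∈ O' ↔ Odd (orderOf k) := by
    refine fun k => ⟨fun hk => hO'odd.of_dvd_nat ?_, fun hk => ?_⟩
    · rw [← Subgroup.orderOf_mk k hk]; exact orderOf_dvd_natCard _
    · by_contra hne
      obtain ⟨j, hj⟩ := hk
      have h1 : k ^ (2 * j + 1) = 1 := by rw [← hj, pow_orderOf_eq_one]
      have h2 : k ^ (2 * j) ∈ O' := by
        rw [pow_mul, sq]
        exact pow_mem ((Subgroup.mul_mem_iff_of_index_two hO'idx).2 Iff.rfl) j
      have h3 : k ^ (2 * j + 1) ∈ O' := h1 ▸ one_mem _
      rw [pow_succ] at h3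
      exact hne ((O'.mul_mem_cancel_left h2).1 h3)
  set O : Subgroup G := O'.map K.subtype
  have hOG : ∀ g : G, g ∈ O ↔ g ∈ K ∧ Odd (orderOf g) := by
    intro g
    refine ⟨?_, fun hg => ⟨⟨g, hg.1⟩, (hOmem _).2 (by rw [Subgroup.orderOf_mk]; exact hg.2), rfl⟩⟩
    rintro ⟨k, hk, rfl⟩
    exact ⟨k.2, by rw [Subgroup.coe_subtype, Subgroup.orderOf_coe]; exact (hOmem k).1 hk⟩
  have hOodd : Odd (Nat.card O) := by
    rw [Subgroup.card_map_of_injective K.subtype_injective]; exact hO'odd
  haveI hOn : O.Normal := ⟨fun g hg c' => by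
    rw [hOG] at hg ⊢
    refine ⟨hKn.conj_mem g hg.1 c', ?_⟩
    rw [show c' * g * c'⁻¹ = MulAut.conj c' g from rfl, MulEquiv.orderOf_eq]
    exact hg.2⟩
  have hOeq : O = oddCore G := by
    refine le_antisymm (Involution.le_oddCore_of_odd hOn hOodd) fun g hg => (hOG g).2 ⟨?_, ?_⟩
    · rw [← QuotientGroup.eq_one_iff]
      have hn : ((oddCore G).map q).Normal :=
        Involution.oddCore_normal.map q (QuotientGroup.mk'_surjective K)
      rcases hn.eq_bot_or_eq_top with e | e
      · have : q g ∈ (oddCore G).map q := ⟨g, hg, rfl⟩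
        rw [e] at this
        exact this
      · exfalso
        have hd := Subgroup.card_map_dvd (f := q) (oddCore G)
        rw [e, Subgroup.card_top, h60] at hd
        exact absurd (Involution.odd_card_oddCore.of_dvd_nat hd) (by decide)
    · exact Involution.odd_orderOf_of_mem_oddCore hg
  have hzO : z ∉ O := fun hz => by
    have := ((hOG z).1 hz).2
    rw [hzo] at this
    exact absurd this (by decide)
  have hodd1 : ∀ w ∈ O, ∀ s : G, orderOf s = 4 → (∃ k < 4, w = s ^ k) → w = 1 := by
    rintro w hw s hs ⟨k, -, rfl⟩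
    have h1 := ((hOG _).1 hw).2
    have h2 : orderOf (s ^ k) ∣ 4 := hs ▸ orderOf_pow_dvd k
    exact orderOf_eq_one_iff.1 (Nat.Coprime.eq_one_of_dvd
      (show Nat.Coprime (orderOf (s ^ k)) 4 by
        rw [show (4 : ℕ) = 2 ^ 2 by rfl]
        exact (Nat.coprime_two_right.2 h1).pow_right 2) h2)
  set W := O ⊓ Subgroup.centralizer ({z} : Set G)
  have hWinv : ∀ s ∈ (S : Subgroup G), q s ≠ 1 → ∀ w ∈ W, s * w * s⁻¹ = w⁻¹ := by
    intro s hs hs1
    have hss := hsz s hs hs1
    have hsc : s * z = z * s := by rw [← hss, mul_assoc]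
    refine conj_eq_inv W s (fun w hw => ⟨hOn.conj_mem w hw.1 s, ?_⟩) (fun w hw => ?_)
      (fun w hw hwc => ?_)
    · have hwz := Subgroup.mem_centralizer_singleton_iff.1 hw.2
      show _ ∈ Subgroup.centralizer ({z} : Set G)
      rw [Subgroup.mem_centralizer_singleton_iff]
      calc s * w * s⁻¹ * z = s * (w * z) * s⁻¹ := by
            rw [mul_assoc, show s⁻¹ * z = z * s⁻¹ by
              rw [eq_mul_inv_iff_mul_eq, mul_assoc, ← hsc]; group]
            group
        _ = s * z * (w * s⁻¹) := by rw [hwz]; group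
        _ = z * (s * w * s⁻¹) := by rw [hsc]; group
    · rw [hss]; exact (Subgroup.mem_centralizer_singleton_iff.1 hw.2).symm
    · obtain ⟨ho, hall⟩ := hord s (hout s hs hs1) hs1
      exact hodd1 w hw.1 s ho (hall w hwc.symm)
  have hW : ∀ w ∈ W, w = 1 := by
    intro w hw
    have ha := hWinv u huS hub1 w hw
    have hb := hWinv y hyS hy1 w hw
    have hc' := hWinv (u * y) huy huy1 w hw
    have : w = w⁻¹ := by
      rw [← hc']
      calc w = (u * w * u⁻¹)⁻¹ := by rw [ha, inv_inv]
        _ = u * w⁻¹ * u⁻¹ := by group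
        _ = u * y * w * (u * y)⁻¹ := by rw [← hb]; group
    have h2 : orderOf w ∣ 2 := orderOf_dvd_of_pow_eq_one (by
      rw [sq]; nth_rw 2 [this]; exact mul_inv_cancel w)
    exact orderOf_eq_one_iff.1 (Nat.Coprime.eq_one_of_dvd
      (Nat.coprime_two_right.2 ((hOG w).1 hw.1).2) h2)
  have hzinv := conj_eq_inv O z (fun w hw => hOn.conj_mem w hw z)
    (fun w _ => by
      rw [← sq, show z ^ 2 = 1 by rw [← hzo, pow_orderOf_eq_one]]
      simp)
    (fun w hw hwc => hW w ⟨hw, Subgroup.mem_centralizer_singleton_iff.2 hwc.symm⟩)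
  refine ⟨hOeq ▸ ⟨⟨fun a b => Subtype.ext (?_ : (a : G) * b = b * a)⟩⟩,
    Or.inr ⟨huo, O, hOn, hOeq, ?_⟩⟩
  · have e1 := hzinv _ (mul_mem a.2 b.2)
    have e2 := hzinv _ a.2
    have e3 := hzinv _ b.2
    have e4 : z * ((a : G) * b) * z⁻¹ = (z * a * z⁻¹) * (z * b * z⁻¹) := by group
    rw [e1, e2, e3, ← mul_inv_rev, inv_inj] at e4
    exact e4
  have hcard : Nat.card (G ⧸ O) = 120 := by
    have e1 := O.card_eq_card_quotient_mul_card_subgroup
    have e2 := O'.card_mul_index
    rw [hO'idx] at e2
    rw [Subgroup.card_map_of_injective K.subtype_injective, hcardG, ← e2] at e1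
    have := Nat.card_pos (α := O')
    exact (Nat.eq_of_mul_eq_mul_right this (by rw [← e1]; ring)).symm
  set r := QuotientGroup.mk' O
  have hrz : orderOf (r z) = 2 := orderOf_eq_prime
    (by rw [← map_pow, show z ^ 2 = 1 by rw [← hzo, pow_orderOf_eq_one], map_one])
    fun e => hzO ((QuotientGroup.eq_one_iff z).1 e)
  refine ZassSL25.nonempty_icoCover hcard ?_ hrz fun t ht => ?_
  · rw [_root_.commutator_def, ← MonoidHom.range_eq_top.2 (QuotientGroup.mk'_surjective O),
      MonoidHom.range_eq_map, ← Subgroup.map_commutator, ← _root_.commutator_def, perfect h]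
  obtain ⟨g, rfl⟩ := QuotientGroup.mk'_surjective O t
  have hgg : g * g ∈ O := by
    rw [← QuotientGroup.eq_one_iff]
    show r (g * g) = 1
    rw [map_mul, ← sq, ← ht, pow_orderOf_eq_one]
  have hqg : q g * q g = 1 := by
    rw [← map_mul]; exact (QuotientGroup.eq_one_iff _).2 ((hOG _).1 hgg).1
  by_cases hg1 : q g = 1
  · have hgK : g ∈ K := (QuotientGroup.eq_one_iff g).1 hg1
    have hgO : g ∉ O := fun e => by
      rw [show r g = 1 from (QuotientGroup.eq_one_iff g).2 e, orderOf_one] at ht
      omega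
    have hk : (⟨z, hzK⟩ * ⟨g, hgK⟩ : K) ∈ O' := by
      rw [Subgroup.mul_mem_iff_of_index_two hO'idx]
      exact ⟨fun e => absurd ⟨_, e, rfl⟩ hzO, fun e => absurd ⟨_, e, rfl⟩ hgO⟩
    have h1 : r z * r g = 1 := by
      rw [← map_mul]
      exact (QuotientGroup.eq_one_iff _).2 ⟨_, hk, rfl⟩
    rw [eq_inv_of_mul_eq_one_right h1]
    exact inv_eq_of_mul_eq_one_right (by rw [← sq, ← hrz, pow_orderOf_eq_one])
  · exfalso
    obtain ⟨ho, -⟩ := hord g hqg hg1
    have h1 := ((hOG _).1 hgg).2
    rw [← sq, orderOf_pow' g (by norm_num : (2 : ℕ) ≠ 0), ho] at h1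
    exact absurd h1 (by decide)

end Cfsg.Agent.Lib.ConstFour
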