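import Cfsg.Agent.Lib.ConstFour.Sixty
import Cfsg.Agent.Lib.ZassSL25.Main
import Mathlib.GroupTheory.QuotientGroup.Basic

/-!
# An element at which every nonvanishing nonprincipal character drops by four: the quotient

Modulo the common kernel of the members of degree three the group has order sixty.
-/

set_option autoImplicit false
set_option linter.unusedSectionVars false
set_option linter.style.haveILetI false

open Cfsg Cfsg.Agent.Lib
open scoped ComplexConjugate

namespace Cfsg.Agent.Lib.ConstFour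

universe u

variable {G : Type u} [Group G] [Finite G] {u : G}

/-- The common kernel of the members of degree three. -/
noncomputable def threeKer (u : G) : Subgroup G :=
  ⨅ φ : {φ : IrrCharacter G // IsThree u φ}, Char.charKer (φ.1 : G → ℂ)

lemma threeKer_normal : (threeKer u).Normal :=
  Subgroup.normal_iInf_normal fun φ => Char.charKer_normal (Char.isCharacter_of_isIrr φ.1.2)

lemma apply_three {φ : IrrCharacter G} (hφ : IsThree u φ) {k : G} (hk : k ∈ threeKer u) :
    (φ : G → ℂ) k = (φ : G → ℂ) 1 :=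
  (Char.mem_charKer (Char.isCharacter_of_isIrr φ.2)).1
    ((Subgroup.mem_iInf.1 hk) ⟨φ, hφ⟩)

lemma not_mem_threeKer (h : Drop u) (hu : u ≠ 1) : u ∉ threeKer u := fun hk => by
  obtain ⟨φ, hφ⟩ := exists_three h hu
  have := apply_three hφ hk
  rw [hφ.2, apply_one, hφ.1] at this
  norm_num at this

lemma vieta_three {x y w : ℂ} (hs : x + y + w = -1) (hp : x * y * w = 1)
    (hq : x * y + y * w + w * x = -1) : x ^ 2 = 1 := by
  have : (x - 1) * ((x + 1) * (x + 1)) = 0 := by linear_combination x ^ 2 * hs - x * hq + hp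
  rcases mul_eq_zero.1 this with e | e
  · rw [sub_eq_zero.1 e]; ring
  · rcases mul_eq_zero.1 e with e | e <;>
      rw [eq_neg_of_add_eq_zero_left e] <;> ring

theorem sq_mem_threeKer (h : Drop u) : u * u ∈ threeKer u := by
  refine Subgroup.mem_iInf.2 fun ⟨φ, hd, hv⟩ => ?_
  rw [Char.mem_charKer (Char.isCharacter_of_isIrr φ.2)]
  obtain ⟨n, ρ, hρ⟩ := Char.isCharacter_of_isIrr φ.2
  obtain ⟨b, μ, hμ, hk, hc⟩ := Char.exists_eigenbasis ρ u
  have hdet : LinearMap.det (ρ u) = 1 := by
    let f : G →* ℂˣ := ((LinearMap.det : Module.End ℂ (Fin n → ℂ) →* ℂ).comp ρ).toHomUnits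
    have hf : u ∈ f.ker :=
      Abelianization.commutator_subset_ker f (by rw [perfect h]; trivial)
    exact congrArg Units.val (MonoidHom.mem_ker.1 hf)
  have hdiag : LinearMap.toMatrix b b (ρ u) = Matrix.diagonal μ := by
    ext i j
    rw [LinearMap.toMatrix_apply, ← pow_one u, hk j 1, pow_one, map_smul, Finsupp.smul_apply,
      b.repr_self, Finsupp.single_apply, Matrix.diagonal_apply]
    rcases eq_or_ne i j with e | e
    · subst e; simp
    · simp [e, e.symm]
  have hprod : ∏ i, μ i = 1 := by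
    rw [← LinearMap.det_toMatrix b, hdiag, Matrix.det_diagonal] at hdet
    exact hdet
  have hn : Module.finrank ℂ (Fin n → ℂ) = 3 := by
    have h1 : (φ : G → ℂ) 1 = 3 := by rw [apply_one, hd]; norm_num
    rw [← hρ, Representation.char_one] at h1
    exact_mod_cast h1
  set e := finCongr hn.symm
  have hsum1 : μ (e 0) + μ (e 1) + μ (e 2) = -1 := by
    rw [← hρ, ← pow_one u, hc 1, ← e.sum_comp, Fin.sum_univ_three] at hv
    simpa using hv
  have hprod1 : μ (e 0) * μ (e 1) * μ (e 2) = 1 := by
    rw [← e.prod_comp, Fin.prod_univ_three] at hprod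
    exact hprod
  have hcj : ∀ i, conj (μ i) * μ i = 1 := fun i => by
    rw [Complex.conj_mul', Char.norm_eq_one_of_pow_orderOf (hμ i)]; simp
  have hq : μ (e 0) * μ (e 1) + μ (e 1) * μ (e 2) + μ (e 2) * μ (e 0) = -1 := by
    have := congrArg (starRingEnd ℂ) hsum1
    simp only [map_add, map_neg, map_one] at this
    linear_combination this + (conj (μ (e 0)) + conj (μ (e 1)) + conj (μ (e 2))) * hprod1 -
      μ (e 1) * μ (e 2) * hcj (e 0) - μ (e 0) * μ (e 2) * hcj (e 1) -
      μ (e 0) * μ (e 1) * hcj (e 2)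
  have h0 := vieta_three hsum1 hprod1 hq
  have h1 := vieta_three (x := μ (e 1)) (y := μ (e 2)) (w := μ (e 0))
    (by linear_combination hsum1) (by linear_combination hprod1) (by linear_combination hq)
  have h2 := vieta_three (x := μ (e 2)) (y := μ (e 0)) (w := μ (e 1))
    (by linear_combination hsum1) (by linear_combination hprod1) (by linear_combination hq)
  show (φ : G → ℂ) (u * u) = (φ : G → ℂ) 1
  rw [apply_one, hd, ← hρ, ← pow_two, hc 2, ← e.sum_comp, Fin.sum_univ_three, h0, h1, h2]
  norm_num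

/-- Every nonvanishing member is trivial on the kernel. -/
theorem trivial_on_threeKer (h : Drop u) (hu : u ≠ 1) (χ : IrrCharacter G)
    (hv : (χ : G → ℂ) u ≠ 0) {k : G} (hk : k ∈ threeKer u) :
    (χ : G → ℂ) k = (χ : G → ℂ) 1 := by
  classical
  haveI := Fintype.ofFinite G
  by_cases hne : (χ : G → ℂ) = fun _ => 1
  · rw [hne]
  rcases nz_cases h χ hne hv with e | e
  · exact apply_three ⟨e, by rw [value h χ hne hv, e]; norm_num⟩ hk
  obtain ⟨-, ψ, φ, hψ, hφ, hin⟩ := big_data h hu hne hv e
  haveI := threeKer_normal (u := u)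
  set N := threeKer u
  set Φ : G → ℂ := fun g => (ψ : G → ℂ) g * conj ((φ : G → ℂ) g)
  have hΦ : IsCharacter G Φ :=
    Char.isCharacter_mul (Char.isCharacter_of_isIrr ψ.2)
      (Char.isCharacter_conj (Char.isCharacter_of_isIrr φ.2))
  obtain ⟨Ψ, hΨ, hΨe⟩ := Char.exists_deflation hΦ N fun n hn => by
    simp only [Φ, apply_three hψ hn, apply_three hφ hn]
  haveI := Fintype.ofFinite (G ⧸ N)
  obtain ⟨m, hm⟩ := Char.isCharacter_eq_sum hΨ
  have hexp : Φ = ∑ η : IrrCharacter (G ⧸ N),
      (m η : ℂ) • ((Char.inflateEquiv N η).1 : G → ℂ) := by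
    funext g
    rw [← hΨe g, hm]
    simp [Finset.sum_apply, Char.inflateEquiv_apply]
  by_contra hχ
  apply hin
  show classInner Φ (χ : G → ℂ) = 0
  rw [hexp, Char.classInner_sum_left]
  refine Finset.sum_eq_zero fun η _ => ?_
  rw [Char.classInner_smul_left, Char.classInner_irr_ne (Char.inflateEquiv N η).1.2 χ.2, mul_zero]
  intro e'
  apply hχ
  rw [← e']
  exact (Char.inflateEquiv N η).2 k hk

lemma drop_quotient (h : Drop u) (N : Subgroup G) [N.Normal] :
    Drop (QuotientGroup.mk u : G ⧸ N) := by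
  intro η hne
  have := h (Char.inflateEquiv N η).1 fun e => hne (funext fun x => by
    obtain ⟨g, rfl⟩ := QuotientGroup.mk_surjective x
    rw [← Char.inflateEquiv_apply, e])
  simpa [Char.inflateEquiv_apply] using this

/-- The centralizer of `u` has order four, and modulo the kernel there are sixty elements. -/
theorem quotient_data (h : Drop u) (hu : u ≠ 1) :
    ∃ (N : Subgroup G) (_ : N.Normal), u ∉ N ∧ u * u ∈ N ∧
      Nat.card (Subgroup.centralizer ({u} : Set G)) = 4 ∧ Nat.card (G ⧸ N) = 60 ∧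
      Nat.card (Subgroup.centralizer ({(QuotientGroup.mk u : G ⧸ N)} : Set (G ⧸ N))) = 4 ∧
      commutator (G ⧸ N) = ⊤ ∧
      ∃ x : G ⧸ N, IsConj x (QuotientGroup.mk u) ∧ IsConj (x * QuotientGroup.mk u) (QuotientGroup.mk u) ∧
        x * x = 1 ∧ x * QuotientGroup.mk u = QuotientGroup.mk u * x := by
  classical
  haveI := threeKer_normal (u := u)
  set N := threeKer u
  haveI := Fintype.ofFinite G
  haveI := Fintype.ofFinite (G ⧸ N)
  have hnot := not_mem_threeKer h hu
  have hsq := sq_mem_threeKer h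
  set ub : G ⧸ N := QuotientGroup.mk u
  have hub : ub ≠ 1 := fun e => hnot ((QuotientGroup.eq_one_iff u).1 e)
  have huo : orderOf ub = 2 := orderOf_eq_prime
    (by rw [sq]; exact (QuotientGroup.eq_one_iff _).2 hsq) hub
  have hD := drop_quotient h N
  obtain ⟨hsix, h60, hx⟩ := involution_case hD huo
  obtain ⟨b', hc', -, hb'⟩ := order_formula hD hub
  obtain rfl : b' = 0 := by
    by_contra e
    obtain ⟨χ, hχ⟩ := hb' e
    exact hsix χ hχ
  obtain ⟨b, hc, -, hb⟩ := order_formula h hu
  obtain rfl : b = 0 := by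
    by_contra e
    obtain ⟨χ, hχd, hχv⟩ := hb e
    obtain ⟨η, hη⟩ := (Char.inflateEquiv N).surjective
      ⟨χ, fun n hn => trivial_on_threeKer h hu χ (by rw [hχv]; norm_num) hn⟩
    have hval : ∀ g : G, (η : G ⧸ N → ℂ) (QuotientGroup.mk g) = (χ : G → ℂ) g := fun g => by
      rw [← Char.inflateEquiv_apply, hη]
    refine hsix η ⟨Char.charDegree_eq_of_apply_one ?_, by rw [hval, hχv]⟩
    rw [← QuotientGroup.mk_one, hval, apply_one, hχd]
  exact ⟨N, inferInstance, hnot, hsq, by simpa using hc, h60, by simpa using hc', perfect hD, hx⟩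

end Cfsg.Agent.Lib.ConstFour
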