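import Cfsg.Agent.Lib.ConstFour.Degrees
import Cfsg.Agent.Lib.Block.KleinDefect
import Cfsg.Agent.Lib.Block.Exist
import Mathlib.GroupTheory.Perm.Cycle.Type

/-!
# An element at which every nonvanishing nonprincipal character drops by four: order sixty

The counts of the members give the group order, and for an involution the block of a member of
degree six would lack members of degree three, against weak orthogonality.
-/

set_option autoImplicit false
set_option linter.unusedSectionVars false
set_option linter.style.haveILetI false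

open Cfsg Cfsg.Agent.Lib
open scoped ComplexConjugate Pointwise

namespace Cfsg.Agent.Lib.ConstFour

universe u

variable {G : Type u} [Group G] [Finite G] {u : G}

open scoped Classical in
lemma sum_split [Fintype G] (h : Drop u) (hu : u ≠ 1) :
    ∃ m a b : ℕ, (b ≠ 0 → ∃ χ : IrrCharacter G, deg χ = 6 ∧ (χ : G → ℂ) u = 2) ∧
      ∀ g : ℂ → ℂ → ℂ, (∀ d, g d 0 = 0) →
        ∑ χ : IrrCharacter G, g ((χ : G → ℂ) 1) ((χ : G → ℂ) u) =
          g 1 1 + (m : ℂ) * g 3 (-1) + (a : ℂ) * g 5 1 + (b : ℂ) * g 6 2 := by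
  set o : IrrCharacter G := ⟨fun _ => (1 : ℂ), Char.isIrrCharacter_one⟩
  set S3 := Finset.univ.filter fun χ : IrrCharacter G => deg χ = 3 ∧ (χ : G → ℂ) u = -1
  set S5 := Finset.univ.filter fun χ : IrrCharacter G => deg χ = 5 ∧ (χ : G → ℂ) u = 1
  set S6 := Finset.univ.filter fun χ : IrrCharacter G => deg χ = 6 ∧ (χ : G → ℂ) u = 2
  refine ⟨S3.card, S5.card, S6.card, fun hb => ?_, fun g hg => ?_⟩
  · obtain ⟨χ, hχ⟩ := Finset.card_ne_zero.1 hb
    exact ⟨χ, (Finset.mem_filter.1 hχ).2⟩
  have hpt : ∀ χ : IrrCharacter G, g ((χ : G → ℂ) 1) ((χ : G → ℂ) u) =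
      (if χ = o then g 1 1 else 0) + (if χ ∈ S3 then g 3 (-1) else 0) +
        (if χ ∈ S5 then g 5 1 else 0) + (if χ ∈ S6 then g 6 2 else 0) := by
    intro χ
    simp only [S3, S5, S6, Finset.mem_filter, Finset.mem_univ, true_and]
    have hdo : deg o = 1 := Char.charDegree_one
    by_cases hne : χ = o
    · subst hne
      simp [o, hdo]
    have hne' : (χ : G → ℂ) ≠ fun _ => 1 := fun e => hne (Subtype.ext e)
    by_cases hv : (χ : G → ℂ) u = 0
    · simp [hne, hv, hg]
    rcases nz_trichotomy h hu χ hne' hv with ⟨e1, e2⟩ | ⟨e1, e2⟩ | ⟨e1, e2⟩ <;>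
      simp [hne, e1, e2, apply_one]
  simp only [hpt, Finset.sum_add_distrib, Finset.sum_ite_eq', Finset.mem_univ, if_true,
    Finset.sum_ite_mem, Finset.univ_inter, Finset.sum_const, nsmul_eq_mul]

open scoped Classical in
/-- The centralizer order and the group order. -/
theorem order_formula [Fintype G] (h : Drop u) (hu : u ≠ 1) :
    ∃ b : ℕ, Nat.card (Subgroup.centralizer ({u} : Set G)) = 4 * (1 + 2 * b) ∧
      Nat.card G = 30 * (Brauer43.pairsOf u u).card * (1 + 2 * b) ^ 2 ∧
      (b ≠ 0 → ∃ χ : IrrCharacter G, deg χ = 6 ∧ (χ : G → ℂ) u = 2) := by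
  obtain ⟨m, a, b, hb, hsum⟩ := sum_split h hu
  refine ⟨b, ?_⟩
  set P := (Brauer43.pairsOf u u).card with hP
  set C := Subgroup.centralizer ({u} : Set G)
  have e1 : 3 * m = 1 + 5 * a + 12 * b := by
    have e := hsum (fun d v => v * conj d) (fun d => zero_mul _)
    rw [CharAux.sum_irr_mul_conj_eq_zero fun hc => hu (isConj_one_left.1 hc)] at e
    simp only [map_one, map_ofNat] at e
    have : (3 * m : ℂ) = 1 + 5 * a + 12 * b := by linear_combination e
    exact_mod_cast this
  have e2 : Nat.card C = 1 + m + a + 4 * b := by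
    have e := hsum (fun _ v => v * v) (fun _ => zero_mul _)
    have hn : ∀ χ : IrrCharacter G, (χ : G → ℂ) u * (χ : G → ℂ) u =
        (Complex.normSq ((χ : G → ℂ) u) : ℂ) := fun χ => by
      rw [← Complex.mul_conj, value_real h]
    rw [Finset.sum_congr rfl fun χ _ => hn χ, ← Complex.ofReal_sum, CharAux.sum_irr_normSq u,
      Complex.ofReal_natCast] at e
    have : ((Nat.card C : ℕ) : ℂ) = 1 + m + a + 4 * b := by rw [e]; ring
    exact_mod_cast this
  have hI := C.index_mul_card
  set I := C.index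
  have e3 : 15 * Nat.card G * P + 5 * m * I ^ 2 = I ^ 2 * (15 + 3 * a + 20 * b) := by
    have e := hsum (fun d v => ((I : ℂ) * v) ^ 2 * v / d) (fun d => by simp)
    have hp := Brauer43.card_pairsOf u u
    simp only [Char.char_inv (Char.isCharacter_of_isIrr (Subtype.prop _)), value_real h] at hp
    rw [← hp] at e
    have : (15 * Nat.card G * P + 5 * m * I ^ 2 : ℂ) = I ^ 2 * (15 + 3 * a + 20 * b) := by
      rw [mul_assoc, e]; ring
    exact_mod_cast this
  have e3' : 45 * Nat.card G * P + 16 * a * I ^ 2 = 40 * I ^ 2 := by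
    have : 15 * m * I ^ 2 = (5 + 25 * a + 60 * b) * I ^ 2 := by
      rw [show 15 * m = 5 * (3 * m) by ring, e1]; ring
    nlinarith [e3, this]
  have hI0 : 0 < I ^ 2 := pow_pos (Nat.pos_of_ne_zero Subgroup.index_ne_zero_of_finite) 2
  have ha2 : a ≤ 2 := by
    by_contra ha
    have : 48 * I ^ 2 ≤ 16 * a * I ^ 2 := Nat.mul_le_mul_right _ (by omega)
    omega
  obtain rfl : a = 1 := by omega
  have hc : Nat.card C = 4 * (1 + 2 * b) := by omega
  refine ⟨hc, ?_, hb⟩
  have hGpos : 0 < Nat.card G := Nat.card_pos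
  have e5 : 15 * Nat.card G * P = 8 * I ^ 2 := by nlinarith [e3']
  have e6 : Nat.card G * (8 * Nat.card G) = Nat.card G * (15 * P * Nat.card C ^ 2) := by
    have : Nat.card G * (8 * Nat.card G) = 8 * I ^ 2 * Nat.card C ^ 2 := by rw [← hI]; ring
    rw [this, ← e5]; ring
  have e7 := Nat.eq_of_mul_eq_mul_left hGpos e6
  rw [hc] at e7
  nlinarith [e7]

/-- An element squaring to one of a finite group of even order: their number is even. -/
lemma even_card_sq_eq_one {Q : Type u} [Group Q] [Finite Q] (hQ : 2 ∣ Nat.card Q) :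
    2 ∣ Nat.card {q : Q // q * q = 1} := by
  classical
  haveI := Fintype.ofFinite Q
  haveI : Fact (Nat.Prime 2) := ⟨Nat.prime_two⟩
  have h := Equiv.Perm.card_fixedPoints_modEq (p := 2) (n := 1)
    (f := (fun q : Q => q⁻¹ : Function.End Q)) (by funext q; exact inv_inv q)
  have e : Nat.card {q : Q // q * q = 1} =
      Fintype.card (Function.fixedPoints (fun q : Q => q⁻¹ : Function.End Q)) := by
    rw [Nat.card_eq_fintype_card]
    refine Fintype.card_congr (Equiv.subtypeEquivRight fun q => ?_)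
    show q * q = 1 ↔ q⁻¹ = q
    rw [inv_eq_iff_mul_eq_one]
  rw [e]
  exact Nat.modEq_zero_iff_dvd.1 (h.symm.trans (Nat.modEq_zero_iff_dvd.2
    (by rwa [← Nat.card_eq_fintype_card])))

open scoped Classical in
/-- The pairs of conjugates of an involution with product itself. -/
theorem pairs_mod_four [Fintype G] (huo : orderOf u = 2) {b : ℕ}
    (hc : Nat.card (Subgroup.centralizer ({u} : Set G)) = 4 * (1 + 2 * b))
    (hne : (Brauer43.pairsOf u u).card ≠ 0) :
    (Brauer43.pairsOf u u).card % 4 = 2 ∧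
      (Brauer43.pairsOf u u).card + 2 ≤ Nat.card (Subgroup.centralizer ({u} : Set G)) ∧
      ∃ x : G, IsConj x u ∧ IsConj (x * u) u ∧ x * x = 1 ∧ x * u = u * x := by
  haveI : Fact (Nat.Prime 2) := ⟨Nat.prime_two⟩
  set C := Subgroup.centralizer ({u} : Set G)
  have huu : u * u = 1 := by rw [← sq, ← huo, pow_orderOf_eq_one]
  have hu1 : u ≠ 1 := fun e => by rw [e, orderOf_one] at huo; omega
  have hsq : ∀ {x : G}, IsConj x u → x * x = 1 := fun {x} hx => by
    obtain ⟨g, rfl⟩ := isConj_iff.1 hx.symm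
    rw [show g * u * g⁻¹ * (g * u * g⁻¹) = g * (u * u) * g⁻¹ by group, huu]; group
  have hpair : ∀ q ∈ Brauer43.pairsOf u u,
      q.1 * u = u * q.1 ∧ q.2 = q.1 * u ∧ IsConj q.1 u ∧ IsConj (q.1 * u) u := by
    intro q hq
    simp only [Brauer43.pairsOf, Finset.mem_filter, Finset.mem_univ, true_and] at hq
    obtain ⟨h1, h2, h3⟩ := hq
    have e2 : q.2 = q.1 * u := by rw [← h3, ← mul_assoc, hsq h1, one_mul]
    refine ⟨?_, e2, h1, e2 ▸ h2⟩
    have h4 := hsq h2
    rw [e2] at h4
    have hxi : q.1⁻¹ = q.1 := inv_eq_of_mul_eq_one_right (hsq h1)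
    have hui : u⁻¹ = u := inv_eq_of_mul_eq_one_right huu
    have h5 := inv_eq_of_mul_eq_one_right h4
    rw [mul_inv_rev, hxi, hui] at h5
    exact h5.symm
  obtain ⟨q₀, hq₀⟩ := Finset.card_ne_zero.1 hne
  obtain ⟨hcx, -, hx, hxu⟩ := hpair q₀ hq₀
  set x₀ := q₀.1
  have hxx : x₀ * x₀ = 1 := hsq hx
  have hx1 : x₀ ≠ 1 := fun e => hu1 (by
    rw [e] at hx
    exact isConj_one_right.1 hx)
  have hxu1 : x₀ * u ≠ 1 := fun e => hu1 (by rw [e] at hxu; exact isConj_one_right.1 hxu)
  have hxne : x₀ ≠ u := fun e => hxu1 (by rw [e, huu])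
  let u' : C := ⟨u, Subgroup.mem_centralizer_singleton_iff.2 rfl⟩
  let x' : C := ⟨x₀, Subgroup.mem_centralizer_singleton_iff.2 hcx⟩
  let T : Subgroup C :=
    { carrier := {1, u', x', x' * u'}
      one_mem' := by simp
      mul_mem' := by
        have a1 : u' * u' = 1 := Subtype.ext huu
        have a2 : x' * x' = 1 := Subtype.ext hxx
        have a3 : u' * x' = x' * u' := Subtype.ext hcx.symm
        rintro p q (rfl | rfl | rfl | rfl) (rfl | rfl | rfl | rfl) <;>
          simp [a1, a2, a3, ← mul_assoc]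
        all_goals simp [a1, a2, a3, mul_assoc]
        all_goals simp [a1, a2, ← mul_assoc]
      inv_mem' := by
        have a1 : u'⁻¹ = u' := inv_eq_of_mul_eq_one_right (Subtype.ext huu)
        have a2 : x'⁻¹ = x' := inv_eq_of_mul_eq_one_right (Subtype.ext hxx)
        have a3 : u' * x' = x' * u' := Subtype.ext hcx.symm
        rintro p (rfl | rfl | rfl | rfl) <;> simp [a1, a2, a3] }
  have hT : Nat.card T = 4 := by
    have : (T : Set C) = {1, u', x', x' * u'} := rfl
    rw [← SetLike.coe_sort_coe, this, Nat.card_coe_set_eq]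
    have n1 : (1 : C) ∉ ({u', x', x' * u'} : Set C) := by
      simp only [Set.mem_insert_iff, Set.mem_singleton_iff, Subtype.ext_iff, not_or]
      exact ⟨hu1.symm, hx1.symm, hxu1.symm⟩
    have n2 : u' ∉ ({x', x' * u'} : Set C) := by
      simp only [Set.mem_insert_iff, Set.mem_singleton_iff, Subtype.ext_iff, not_or]
      refine ⟨hxne.symm, fun e => hx1 ?_⟩
      simpa [u', x'] using e
    have n3 : x' ∉ ({x' * u'} : Set C) := by
      simp only [Set.mem_singleton_iff, Subtype.ext_iff]
      exact fun e => hu1 (by simpa [u', x'] using e)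
    rw [Set.ncard_insert_of_notMem n1, Set.ncard_insert_of_notMem n2,
      Set.ncard_insert_of_notMem n3, Set.ncard_singleton]
  have hfac : (Nat.card C).factorization 2 = 2 := by
    rw [hc, Nat.factorization_mul (by norm_num) (by omega), show (4 : ℕ) = 2 ^ 2 by norm_num,
      Finsupp.add_apply, Nat.Prime.factorization_pow Nat.prime_two, Finsupp.single_eq_same,
      Nat.factorization_eq_zero_of_not_dvd (n := 1 + 2 * b) (by omega)]
  let S : Sylow 2 C := Sylow.ofCard T (by rw [hT, hfac]; norm_num)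
  have hclass : ∀ y : C, y * y * (y * y) = 1 →
      (y : G) * y = 1 ∧ ((y : G) = 1 ∨ (y : G) = u ∨ (IsConj (y : G) u ∧ IsConj ((y : G) * u) u)) := by
    intro y hy
    have hp : IsPGroup 2 (Subgroup.zpowers y) := by
      rintro ⟨w, hw⟩
      obtain ⟨k, rfl⟩ := Subgroup.mem_zpowers_iff.1 hw
      refine ⟨2, Subtype.ext ?_⟩
      show (y ^ k) ^ (2 ^ 2) = 1
      have h4 : y ^ (4 : ℤ) = 1 := by
        rw [show (4 : ℤ) = 2 * 2 by norm_num, zpow_mul, zpow_two, zpow_two]; exact hy
      rw [← zpow_natCast, ← zpow_mul, mul_comm, zpow_mul]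
      norm_num [h4]
    obtain ⟨R, hR⟩ := hp.exists_le_sylow
    obtain ⟨c, hcS⟩ := MulAction.exists_smul_eq C S R
    rw [← hcS] at hR
    have hy' := hR (Subgroup.mem_zpowers y)
    rw [Sylow.coe_subgroup_smul, Subgroup.mem_pointwise_smul_iff_inv_smul_mem] at hy'
    have ht : c⁻¹ * y * c ∈ T := by simpa [S] using hy'
    have hcu : (c : G) * u = u * (c : G) := Subgroup.mem_centralizer_singleton_iff.1 c.2
    have hey : (y : G) = (c : G) * ((c⁻¹ * y * c : C) : G) * (c : G)⁻¹ := by
      push_cast; group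
    have hconj : ∀ t : G, IsConj ((c : G) * t * (c : G)⁻¹) t := fun t =>
      (isConj_iff.2 ⟨(c : G), rfl⟩).symm
    generalize c⁻¹ * y * c = t at ht hey
    rcases ht with rfl | rfl | rfl | rfl
    · have : (y : G) = 1 := by simpa using hey
      simp [this]
    · have : (y : G) = u := by rw [hey]; simp [u', hcu]
      simp [this, huu]
    · have : (y : G) = (c : G) * x₀ * (c : G)⁻¹ := hey
      refine ⟨hsq (this ▸ (hconj x₀).trans hx), Or.inr (Or.inr ⟨this ▸ (hconj x₀).trans hx, ?_⟩)⟩
      rw [this, show (c : G) * x₀ * (c : G)⁻¹ * u = (c : G) * (x₀ * u) * (c : G)⁻¹ by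
        rw [show (c : G) * (x₀ * u) * (c : G)⁻¹ = (c : G) * x₀ * (c : G)⁻¹ * ((c : G) * u * (c : G)⁻¹)
          by group, hcu, mul_inv_cancel_right]]
      exact (hconj _).trans hxu
    · have : (y : G) = (c : G) * (x₀ * u) * (c : G)⁻¹ := hey
      refine ⟨hsq (this ▸ (hconj _).trans hxu), Or.inr (Or.inr ⟨this ▸ (hconj _).trans hxu, ?_⟩)⟩
      rw [this, show (c : G) * (x₀ * u) * (c : G)⁻¹ * u = (c : G) * x₀ * (c : G)⁻¹ by
        rw [show (c : G) * (x₀ * u) * (c : G)⁻¹ = (c : G) * x₀ * (c : G)⁻¹ * ((c : G) * u * (c : G)⁻¹)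
          by group, hcu, mul_inv_cancel_right, mul_assoc ((c : G) * x₀ * (c : G)⁻¹), huu, mul_one]]
      exact (hconj _).trans hx
  let J : Finset C := Finset.univ.filter fun y => y * y = 1
  have hJcard : J.card = (Brauer43.pairsOf u u).card + 2 := by
    have hmem : ({1, u'} : Finset C) ⊆ J := by
      intro y hy
      simp only [Finset.mem_insert, Finset.mem_singleton] at hy
      rcases hy with rfl | rfl
      · simp [J]
      · simp [J, u', Subtype.ext_iff, huu]
    have h2 : ({1, u'} : Finset C).card = 2 :=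
      Finset.card_pair fun e => hu1 (congrArg Subtype.val e).symm
    rw [← Finset.card_sdiff_add_card_eq_card hmem, h2]
    congr 1
    refine Finset.card_bij (fun y _ => ((y : G), (y : G) * u)) ?_ ?_ ?_
    · intro y hy
      simp only [J, Finset.mem_sdiff, Finset.mem_filter, Finset.mem_univ, true_and,
        Finset.mem_insert, Finset.mem_singleton, not_or, Subtype.ext_iff] at hy
      obtain ⟨hsq', hne1, hneu⟩ := hy
      push_cast at hsq'
      obtain ⟨-, e | e | ⟨e, e'⟩⟩ := hclass y (Subtype.ext (by push_cast; rw [hsq', one_mul]))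
      · exact absurd e hne1
      · exact absurd e hneu
      · simp only [Brauer43.pairsOf, Finset.mem_filter, Finset.mem_univ, true_and]
        exact ⟨e, e', by rw [← mul_assoc, hsq', one_mul]⟩
    · intro a _ b' _ e
      exact Subtype.ext (congrArg Prod.fst e)
    · intro q hq
      obtain ⟨h1, h2', h3, h4⟩ := hpair q hq
      refine ⟨⟨q.1, Subgroup.mem_centralizer_singleton_iff.2 h1⟩, ?_, Prod.ext rfl h2'.symm⟩
      simp only [J, Finset.mem_sdiff, Finset.mem_filter, Finset.mem_univ, true_and,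
        Finset.mem_insert, Finset.mem_singleton, not_or, Subtype.ext_iff]
      refine ⟨by push_cast; exact hsq h3, fun e => hu1 ?_, fun e => hu1 ?_⟩
      · simp only [OneMemClass.coe_one] at e
        rw [e] at h3
        exact isConj_one_right.1 h3
      · simp only [u'] at e
        rw [e, huu] at h4
        exact isConj_one_right.1 h4
  let Z : Subgroup C := Subgroup.zpowers u'
  have hu'o : orderOf u' = 2 := by rw [← Subgroup.orderOf_coe]; exact huo
  have hZ : Nat.card Z = 2 := by rw [Nat.card_zpowers, hu'o]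
  have hcen : ∀ w : C, w * u' = u' * w := fun w =>
    Subtype.ext (Subgroup.mem_centralizer_singleton_iff.1 w.2)
  haveI : Z.Normal := ⟨fun n hn w => by
    obtain ⟨k, rfl⟩ := Subgroup.mem_zpowers_iff.1 hn
    rw [show w * u' ^ k * w⁻¹ = (w * u' * w⁻¹) ^ k from conj_zpow.symm, hcen w,
      mul_inv_cancel_right]
    exact zpow_mem (Subgroup.mem_zpowers u') k⟩
  have hQ : 2 ∣ Nat.card (C ⧸ Z) := by
    have := Z.card_eq_card_quotient_mul_card_subgroup
    rw [hZ, hc] at this
    omega
  have hJ2 : J.card = 2 * Nat.card {q : C ⧸ Z // q * q = 1} := by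
    have hset : (QuotientGroup.mk ⁻¹' {q : C ⧸ Z | q * q = 1}) = (J : Set C) := by
      ext y
      simp only [Set.mem_preimage, Set.mem_setOf_eq, J, Finset.coe_filter, Finset.mem_univ,
        true_and]
      rw [← QuotientGroup.mk_mul, QuotientGroup.eq_one_iff]
      refine ⟨fun hy => ?_, fun hy => hy ▸ one_mem Z⟩
      obtain ⟨k, hk⟩ := Subgroup.mem_zpowers_iff.1 hy
      have h4 : y * y * (y * y) = 1 := by
        rw [← hk, ← zpow_add, ← two_mul, zpow_mul, zpow_two,
          show u' * u' = 1 from Subtype.ext huu, one_zpow]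
      exact Subtype.ext (hclass y h4).1
    have := Nat.card_congr (QuotientGroup.preimageMkEquivSubgroupProdSet Z {q : C ⧸ Z | q * q = 1})
    rw [hset, Nat.card_prod, hZ] at this
    simpa [Nat.card_eq_fintype_card, Fintype.card_subtype] using this
  obtain ⟨t, ht⟩ := even_card_sq_eq_one hQ
  refine ⟨by omega, ?_, x₀, hx, hxu, hxx, hcx⟩
  rw [← hJcard, Nat.card_eq_fintype_card]
  exact Finset.card_le_univ J

open scoped Classical in
/-- For an involution there is no member of degree six and the order is sixty. -/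
theorem involution_case [Fintype G] (h : Drop u) (huo : orderOf u = 2) :
    (∀ χ : IrrCharacter G, ¬ (deg χ = 6 ∧ (χ : G → ℂ) u = 2)) ∧ Nat.card G = 60 ∧
      ∃ x : G, IsConj x u ∧ IsConj (x * u) u ∧ x * x = 1 ∧ x * u = u * x := by
  haveI : Fact (Nat.Prime 2) := ⟨Nat.prime_two⟩
  have hu1 : u ≠ 1 := fun e => by rw [e, orderOf_one] at huo; omega
  obtain ⟨b, hc, hG, hb⟩ := order_formula h hu1
  have hne : (Brauer43.pairsOf u u).card ≠ 0 := fun e => by
    rw [e] at hG
    have := Nat.card_pos (α := G)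
    simp at hG
  obtain ⟨hmod, hle, hx⟩ := pairs_mod_four huo hc hne
  set P := (Brauer43.pairsOf u u).card
  have hfac : (Nat.card G).factorization 2 = 2 := by
    have e : Nat.card G = 2 ^ 2 * (15 * (P / 2) * (1 + 2 * b) ^ 2) := by
      rw [hG]
      conv_lhs => rw [show P = 2 * (P / 2) by omega]
      ring
    have hodd : ¬ 2 ∣ 15 * (P / 2) * (1 + 2 * b) ^ 2 := by
      rw [← even_iff_two_dvd, Nat.not_even_iff_odd]
      exact ((show Odd 15 by decide).mul ⟨P / 4, by omega⟩).mul (Odd.pow ⟨b, by omega⟩)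
    have hne0 : 15 * (P / 2) * (1 + 2 * b) ^ 2 ≠ 0 := fun e' => hodd (by rw [e']; exact dvd_zero 2)
    rw [e, Nat.factorization_mul (by norm_num) hne0, Finsupp.add_apply,
      Nat.Prime.factorization_pow Nat.prime_two, Finsupp.single_eq_same,
      Nat.factorization_eq_zero_of_not_dvd hodd]
  have hsix : ∀ χ : IrrCharacter G, ¬ (deg χ = 6 ∧ (χ : G → ℂ) u = 2) := by
    rintro χ ⟨hd, hv⟩
    obtain ⟨M, hM⟩ := Block.exists_isPModular Nat.prime_two
    haveI : M.IsPrime := hM.2.1.isPrime
    set B := blockOf M (χ : G → ℂ) with hBdef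
    have hBb : IsPBlock M B := Block.isPBlock_blockOf χ
    have hχB : χ ∈ B := Block.mem_blockOf_self χ
    have hno : ∀ φ ∈ B, deg φ ≠ 3 := by
      intro φ hφ e
      have h0 : sInf ((fun χ : IrrCharacter G => (charDegree (χ : G → ℂ)).factorization 2) '' B) =
          0 := by
        refine Nat.le_zero.1 (Nat.sInf_le ⟨φ, hφ, ?_⟩)
        show (deg φ).factorization 2 = 0
        rw [e]
        exact Nat.factorization_eq_zero_of_not_dvd (by norm_num)
      have hdef : blockDefect 2 B = 2 := by rw [blockDefect, h0, hfac]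
      have hh := Block.KleinDefect.height_eq_zero hM hBb hdef hχB
      rw [blockHeight, h0, Nat.sub_zero] at hh
      change (deg χ).factorization 2 = 0 at hh
      rw [hd, show (6 : ℕ) = 2 ^ 1 * 3 by norm_num, Nat.factorization_mul (by norm_num) (by norm_num),
        Finsupp.add_apply, Nat.Prime.factorization_pow Nat.prime_two, Finsupp.single_eq_same] at hh
      omega
    have horth := Block.weak_orthogonality hM hBb (x := (1 : G)) (y := u)
      (by rw [orderOf_one]; norm_num) (by rw [huo])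
    have hre := congrArg Complex.re horth
    rw [Complex.re_sum] at hre
    have hnn : ∀ ψ ∈ (Finset.univ : Finset (IrrCharacter G)),
        0 ≤ (if ψ ∈ B then (ψ : G → ℂ) 1 * conj ((ψ : G → ℂ) u) else 0).re := by
      intro ψ _
      split_ifs with hψ
      · by_cases hne' : (ψ : G → ℂ) = fun _ => 1
        · simp [hne']
        by_cases hv' : (ψ : G → ℂ) u = 0
        · simp [hv']
        rcases nz_trichotomy h hu1 ψ hne' hv' with ⟨e1, e2⟩ | ⟨e1, e2⟩ | ⟨e1, e2⟩
        · exact absurd e1 (hno ψ hψ)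
        all_goals
          rw [apply_one, e1, e2]
          norm_num
      · simp
    have := (Finset.sum_eq_zero_iff_of_nonneg hnn).1 (by simpa using hre) χ (Finset.mem_univ χ)
    rw [if_pos hχB, apply_one, hd, hv] at this
    norm_num at this
  refine ⟨hsix, ?_, hx⟩
  obtain rfl : b = 0 := by
    by_contra e
    obtain ⟨χ, hχ⟩ := hb e
    exact hsix χ hχ
  rw [hc] at hle
  rw [hG, show P = 2 by omega]
  norm_num

end Cfsg.Agent.Lib.ConstFour
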